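import Mathlib

/-!
# Piece C1 of S4130
-/

namespace Cfsg.Agent.Lib.Helper64.SqFree

variable {G : Type*} [Group G] [Finite G] {p : ℕ} [Fact p.Prime]

/-- a uniform exponent killing the `p`-elements and fixing the `p'`-elements. -/
theorem exists_uniform_exponent (G : Type*) [Group G] [Finite G] (p : ℕ) [Fact p.Prime] :
    ∃ e : ℕ, (∀ s : G, (∃ k : ℕ, s ^ p ^ k = 1) → s ^ e = 1) ∧
      ∀ y : G, ¬ p ∣ orderOf y → y ^ e = y := by
  have hp : p.Prime := Fact.out
  have hn : Nat.card G ≠ 0 := Nat.card_pos.ne'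
  have hmul : ordProj[p] (Nat.card G) * ordCompl[p] (Nat.card G) = Nat.card G :=
    Nat.ordProj_mul_ordCompl_eq_self _ _
  have hcop : p.Coprime (ordCompl[p] (Nat.card G)) := Nat.coprime_ordCompl hp hn
  have hcop' : (ordProj[p] (Nat.card G)).Coprime (ordCompl[p] (Nat.card G)) :=
    Nat.Coprime.pow_left _ hcop
  obtain ⟨e, he0, he1⟩ := Nat.chineseRemainder hcop' 0 1
  refine ⟨e, ?_, ?_⟩
  · rintro s ⟨k, hk⟩
    have h1 : orderOf s ∣ p ^ k := orderOf_dvd_of_pow_eq_one hk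
    have h2 : orderOf s ∣ ordProj[p] (Nat.card G) * ordCompl[p] (Nat.card G) := by
      rw [hmul]; exact orderOf_dvd_natCard s
    have h3 : (orderOf s).Coprime (ordCompl[p] (Nat.card G)) :=
      Nat.Coprime.of_dvd_left h1 (Nat.Coprime.pow_left _ hcop)
    have h4 : orderOf s ∣ ordProj[p] (Nat.card G) := h3.dvd_of_dvd_mul_right h2
    have h5 : ordProj[p] (Nat.card G) ∣ e := (Nat.modEq_zero_iff_dvd).1 he0
    exact orderOf_dvd_iff_pow_eq_one.1 (h4.trans h5)
  · intro y hy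
    have h2 : orderOf y ∣ ordProj[p] (Nat.card G) * ordCompl[p] (Nat.card G) := by
      rw [hmul]; exact orderOf_dvd_natCard y
    have h3 : (orderOf y).Coprime (ordProj[p] (Nat.card G)) :=
      Nat.Coprime.pow_right _ ((Nat.Prime.coprime_iff_not_dvd hp).2 hy).symm
    have h4 : orderOf y ∣ ordCompl[p] (Nat.card G) := h3.dvd_of_dvd_mul_left h2
    have h5 : e ≡ 1 [MOD orderOf y] := Nat.ModEq.of_dvd h4 he1
    have h6 := pow_eq_pow_iff_modEq.2 h5
    rwa [pow_one] at h6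

theorem card_regular_le_singular
    (hcomm : ∀ y : G, ¬ p ∣ orderOf y →
      ∃ s : G, s ≠ 1 ∧ (∃ k : ℕ, s ^ p ^ k = 1) ∧ s * y = y * s) :
    Nat.card {g : G // ¬ p ∣ orderOf g} ≤ Nat.card {g : G // p ∣ orderOf g} := by
  have hp : p.Prime := Fact.out
  obtain ⟨e, he0, he1⟩ := exists_uniform_exponent G p
  choose s hs1 hsp hsc using hcomm
  have hpow : ∀ (y : G) (hy : ¬ p ∣ orderOf y), (s y hy * y) ^ e = y := by
    intro y hy
    have hc : Commute (s y hy) y := hsc y hy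
    rw [hc.mul_pow, he0 _ (hsp y hy), he1 y hy, one_mul]
  have hsing : ∀ (y : G) (hy : ¬ p ∣ orderOf y), p ∣ orderOf (s y hy * y) := by
    intro y hy
    by_contra hcon
    have h1 := he1 _ hcon
    rw [hpow y hy] at h1
    exact hs1 y hy (by simpa using h1.symm)
  refine Nat.card_le_card_of_injective
    (fun y : {g : G // ¬ p ∣ orderOf g} => ⟨s y.1 y.2 * y.1, hsing y.1 y.2⟩) ?_
  intro y y' h
  have h1 : s y.1 y.2 * y.1 = s y'.1 y'.2 * y'.1 := congrArg Subtype.val h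
  apply Subtype.ext
  rw [← hpow y.1 y.2, ← hpow y'.1 y'.2, h1]

end Cfsg.Agent.Lib.Helper64.SqFree
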