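import Mathlib
import Cfsg.Agent.Lib.Helper19.SqFree.Defs

/-!
# Piece P2 of S4130
-/

namespace Cfsg.Agent.Lib.Helper64.SqFree

open Subgroup Cfsg.Agent.Lib.Helper19.SqFree

variable {G : Type*} [Group G] [Finite G] {p : ℕ} [Fact p.Prime]

theorem hyp_centralizer_aux (h : Hyp p G)
    (hab : ∀ Q : Sylow p G, ∀ a ∈ Q, ∀ b ∈ Q, a * b = b * a) (t : G)
    (ht : ∃ k : ℕ, t ^ p ^ k = 1) (L : Subgroup G) (hL : ∀ g, g ∈ L ↔ g * t = t * g) :
    Hyp p L := by
  have hp : p.Prime := Fact.out
  refine ⟨fun r hr hd => h.1 r hr (hd.trans (card_subgroup_dvd_card _)), fun y hy hd => ?_⟩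
  have hC : ∀ g, g ∈ centralizer ({(y : G)} : Set G) ↔ g * (y : G) = (y : G) * g :=
    fun g => mem_centralizer_singleton_iff
  generalize centralizer ({(y : G)} : Set G) = C at hC
  have hD : ∀ g, g ∈ centralizer ({y} : Set L) ↔ g * y = y * g :=
    fun g => mem_centralizer_singleton_iff
  have hCi : ¬ p ^ 2 ∣ C.index := by
    have hy' : ¬ p ∣ orderOf (y : G) := by rwa [Subgroup.orderOf_coe]
    have h1 := h.2 (y : G) hy'
    have h2 : C = centralizer ({(y : G)} : Set G) := by
      ext g; rw [hC, mem_centralizer_singleton_iff]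
    rwa [h2]
  generalize centralizer ({y} : Set L) = D at hD hd
  apply hCi
  have hty : t * (y : G) = (y : G) * t := ((hL _).1 y.2).symm
  have htC : t ∈ C := (hC t).2 hty
  -- the cyclic `p`-subgroup generated by `t` inside `C`
  have hZ : IsPGroup p (zpowers (⟨t, htC⟩ : C)) := by
    obtain ⟨k, hk⟩ := ht
    have h1 : orderOf (⟨t, htC⟩ : C) ∣ p ^ k := by
      apply orderOf_dvd_of_pow_eq_one
      apply Subtype.ext
      simpa using hk
    obtain ⟨j, -, hj⟩ := (Nat.dvd_prime_pow hp).1 h1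
    apply IsPGroup.of_card (n := j)
    rw [Nat.card_zpowers, hj]
  obtain ⟨S, hS⟩ := hZ.exists_le_sylow
  set S' : Subgroup G := (S : Subgroup C).map C.subtype with hS'
  have hS'p : IsPGroup p S' := S.2.map _
  have hS'card : Nat.card S' = p ^ (Nat.card C).factorization p := by
    rw [hS', card_map_of_injective C.subtype_injective]
    exact S.card_eq_multiplicity
  have htS' : t ∈ S' := ⟨⟨t, htC⟩, hS (mem_zpowers _), rfl⟩
  obtain ⟨Q, hQ⟩ := hS'p.exists_le_sylow
  have hS'L : S' ≤ L := by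
    intro s hs
    rw [hL]
    exact hab Q s (hQ hs) t (hQ htS')
  have hS'C : S' ≤ C := map_subtype_le _
  have hDmap : D.map L.subtype = L ⊓ C := by
    ext g
    rw [mem_inf]
    constructor
    · rintro ⟨d, hd, rfl⟩
      refine ⟨d.2, ?_⟩
      rw [hC]
      have hd' : d ∈ D := hd
      rw [hD] at hd'
      exact congrArg Subtype.val hd'
    · rintro ⟨hgL, hgC⟩
      refine ⟨⟨g, hgL⟩, ?_, rfl⟩
      change (⟨g, hgL⟩ : L) ∈ D
      rw [hD]
      rw [hC] at hgC
      exact Subtype.ext hgC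
  have hDcard : Nat.card D = Nat.card (L ⊓ C : Subgroup G) := by
    rw [← hDmap, card_map_of_injective L.subtype_injective]
  have h1 : Nat.card S' ∣ Nat.card D := by
    rw [hDcard]
    exact card_dvd_of_le (le_inf hS'L hS'C)
  have h2 : p ^ 2 * Nat.card S' ∣ Nat.card L := by
    rw [← D.index_mul_card]
    exact mul_dvd_mul hd h1
  have h3 : p ^ 2 * Nat.card S' ∣ C.index * Nat.card C := by
    rw [C.index_mul_card]
    exact h2.trans (card_subgroup_dvd_card L)
  have hn : Nat.card C ≠ 0 := Nat.card_pos.ne'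
  have hmul : ordProj[p] (Nat.card C) * ordCompl[p] (Nat.card C) = Nat.card C :=
    Nat.ordProj_mul_ordCompl_eq_self _ _
  have hcop : p.Coprime (ordCompl[p] (Nat.card C)) := Nat.coprime_ordCompl hp hn
  rw [hS'card] at h3
  have h4 : p ^ (Nat.card C).factorization p * p ^ 2 ∣
      p ^ (Nat.card C).factorization p * (C.index * ordCompl[p] (Nat.card C)) := by
    have e1 : p ^ (Nat.card C).factorization p * (C.index * ordCompl[p] (Nat.card C))
        = C.index * Nat.card C := by
      conv_rhs => rw [← hmul]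
      ring
    rw [e1, mul_comm]
    exact h3
  have h5 : p ^ 2 ∣ C.index * ordCompl[p] (Nat.card C) :=
    Nat.dvd_of_mul_dvd_mul_left (pow_pos hp.pos _) h4
  exact (Nat.Coprime.pow_left 2 hcop).dvd_of_dvd_mul_right h5

theorem hyp_centralizer (h : Hyp p G)
    (hab : ∀ Q : Sylow p G, ∀ a ∈ Q, ∀ b ∈ Q, a * b = b * a) (t : G)
    (ht : ∃ k : ℕ, t ^ p ^ k = 1) : Hyp p (centralizer ({t} : Set G)) :=
  hyp_centralizer_aux h hab t ht _ (fun _ => mem_centralizer_singleton_iff)

end Cfsg.Agent.Lib.Helper64.SqFree
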