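import Mathlib
import Cfsg.Agent.Lib.Helper19.SqFree.Defs

/-!
# Piece P3 of S4130
-/

namespace Cfsg.Agent.Lib.Helper64.SqFree

open Subgroup Cfsg.Agent.Lib.Helper19.SqFree

variable {G : Type*} [Group G]

theorem ncard_conj_eq_relIndex (N : Subgroup G) (y : G) :
    {w : G | ∃ x ∈ N, w = x * y * x⁻¹}.ncard = (centralizer ({y} : Set G)).relIndex N := by
  letI : MulAction N G := MulAction.compHom G ((MulAut.conj : G →* MulAut G).comp N.subtype)
  have hsmul : ∀ (x : N) (g : G), x • g = (x : G) * g * (x : G)⁻¹ := fun x g => rfl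
  have h1 : MulAction.stabilizer N y = (centralizer ({y} : Set G)).subgroupOf N := by
    ext x
    rw [MulAction.mem_stabilizer_iff, hsmul, mem_subgroupOf, mem_centralizer_singleton_iff,
      mul_inv_eq_iff_eq_mul]
  have h2 : MulAction.orbit N y = {w : G | ∃ x ∈ N, w = x * y * x⁻¹} := by
    ext w
    constructor
    · rintro ⟨x, rfl⟩
      exact ⟨x, x.2, rfl⟩
    · rintro ⟨x, hx, rfl⟩
      exact ⟨⟨x, hx⟩, rfl⟩
  rw [← h2, ← MulAction.index_stabilizer, h1]
  rfl

variable [Finite G] {p : ℕ} [Fact p.Prime]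

theorem commute_of_normal_pgroup (h : Hyp p G) (N : Subgroup G) [N.Normal] (hN : IsPGroup p N)
    (y : G) (hy : ¬ p ∣ orderOf y) : ∀ x ∈ N, x * y = y * x := by
  have hp : p.Prime := Fact.out
  set X : Set G := {w : G | ∃ x ∈ N, w = x * y * x⁻¹} with hX
  have hXfin : X.Finite := Set.toFinite X
  -- step 1
  have hXcard : X.ncard ≤ p := by
    rw [hX, ncard_conj_eq_relIndex]
    obtain ⟨n, hn⟩ := hN.index ((centralizer ({y} : Set G)).subgroupOf N)
    have hn' : (centralizer ({y} : Set G)).relIndex N = p ^ n := hn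
    have hd := relIndex_cent_dvd N y
    rw [hn'] at hd ⊢
    have hn1 : n ≤ 1 := by
      by_contra hcon
      exact h.2 y hy ((pow_dvd_pow p (by omega)).trans hd)
    calc p ^ n ≤ p ^ 1 := Nat.pow_le_pow_right hp.pos hn1
      _ = p := pow_one p
  have hyX : y ∈ X := ⟨1, N.one_mem, by simp⟩
  -- step 2
  set f : G → G := fun w => y * w * y⁻¹ with hf
  have hfit : ∀ (i : ℕ) (w : G), f^[i] w = y ^ i * w * (y ^ i)⁻¹ := by
    intro i
    induction i with
    | zero => intro w; simp
    | succ i ih =>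
      intro w
      rw [Function.iterate_succ_apply', ih, hf, pow_succ']
      group
  have hfX : ∀ (i : ℕ) (w : G), w ∈ X → f^[i] w ∈ X := by
    rintro i w ⟨x, hx, rfl⟩
    refine ⟨y ^ i * x * (y ^ i)⁻¹, (inferInstance : N.Normal).conj_mem x hx _, ?_⟩
    rw [hfit]
    have hc : y ^ i * y = y * y ^ i := (pow_succ y i).symm.trans (pow_succ' y i)
    have hc' : (y ^ i)⁻¹ * y * y ^ i = y := by
      rw [mul_assoc, ← hc, inv_mul_cancel_left]
    calc y ^ i * (x * y * x⁻¹) * (y ^ i)⁻¹
        = y ^ i * x * y * x⁻¹ * (y ^ i)⁻¹ := by group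
      _ = y ^ i * x * ((y ^ i)⁻¹ * y * y ^ i) * x⁻¹ * (y ^ i)⁻¹ := by rw [hc']
      _ = y ^ i * x * (y ^ i)⁻¹ * y * (y ^ i * x * (y ^ i)⁻¹)⁻¹ := by group
  have hfix : ∀ w ∈ X, y * w * y⁻¹ = w := by
    intro w hw
    by_cases hwy : w = y
    · rw [hwy]; group
    have hper : Function.IsPeriodicPt f (orderOf y) w := by
      change f^[orderOf y] w = w
      rw [hfit, pow_orderOf_eq_one]; simp
    have hdvd : Function.minimalPeriod f w ∣ orderOf y := hper.minimalPeriod_dvd
    have hpos : 0 < Function.minimalPeriod f w :=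
      Function.IsPeriodicPt.minimalPeriod_pos (orderOf_pos y) hper
    have hinj := Function.iterate_injOn_Iio_minimalPeriod (f := f) (x := w)
    have hle : Function.minimalPeriod f w ≤ (X \ {y}).ncard := by
      have h1 : ((fun i => f^[i] w) '' Set.Iio (Function.minimalPeriod f w)).ncard
          = Function.minimalPeriod f w := by
        rw [Set.ncard_image_of_injOn hinj, Set.ncard_eq_toFinset_card']
        simp
      rw [← h1]
      refine Set.ncard_le_ncard ?_ (hXfin.subset Set.diff_subset)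
      rintro _ ⟨i, -, rfl⟩
      refine ⟨hfX i w hw, ?_⟩
      intro hcon
      apply hwy
      have h2 : y ^ i * w * (y ^ i)⁻¹ = y := by rw [← hfit]; exact hcon
      have hc : y ^ i * y = y * y ^ i := (pow_succ y i).symm.trans (pow_succ' y i)
      calc w = (y ^ i)⁻¹ * (y ^ i * w * (y ^ i)⁻¹) * y ^ i := by group
        _ = (y ^ i)⁻¹ * y * y ^ i := by rw [h2]
        _ = y := by rw [mul_assoc, ← hc, inv_mul_cancel_left]
    have hle2 : (X \ {y}).ncard + 1 ≤ p := by
      rw [Set.ncard_diff_singleton_add_one hyX hXfin]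
      exact hXcard
    have hone : Function.minimalPeriod f w = 1 := by
      by_contra hne
      have hr := Nat.minFac_prime hne
      have hr1 : (Function.minimalPeriod f w).minFac ∣ Nat.card G :=
        ((Nat.minFac_dvd _).trans hdvd).trans (orderOf_dvd_natCard y)
      have hr2 := h.1 _ hr hr1
      have hr3 : (Function.minimalPeriod f w).minFac ≤ Function.minimalPeriod f w :=
        Nat.minFac_le hpos
      omega
    exact Function.minimalPeriod_eq_one_iff_isFixedPt.1 hone
  -- step 3
  intro x hx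
  have hw : x * y * x⁻¹ ∈ X := ⟨x, hx, rfl⟩
  have hcw : Commute y (x * y * x⁻¹) := by
    have := hfix _ hw
    exact mul_inv_eq_iff_eq_mul.1 this
  set c := x * y * x⁻¹ * y⁻¹ with hc
  have hcN : c ∈ N := by
    have : c = x * (y * x⁻¹ * y⁻¹) := by rw [hc]; group
    rw [this]
    exact N.mul_mem hx ((inferInstance : N.Normal).conj_mem _ (N.inv_mem hx) y)
  have hcy : Commute c y := by
    have h1 : Commute (x * y * x⁻¹) y := hcw.symm
    exact h1.mul_left ((Commute.refl y).inv_left)
  have hcyw : c * y = x * y * x⁻¹ := by rw [hc]; group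
  have hco : c ^ orderOf y = 1 := by
    have h1 : (c * y) ^ orderOf y = 1 := by
      rw [hcyw, conj_pow, pow_orderOf_eq_one]; group
    rwa [hcy.mul_pow, pow_orderOf_eq_one, mul_one] at h1
  obtain ⟨k, hk⟩ := hN ⟨c, hcN⟩
  have hk' : c ^ p ^ k = 1 := by
    have := congrArg Subtype.val hk
    simpa using this
  have hc1 : c = 1 := by
    have h5 := pow_gcd_eq_one.2 ⟨hco, hk'⟩
    have hcop : (orderOf y).Coprime (p ^ k) :=
      Nat.Coprime.pow_right _ ((Nat.Prime.coprime_iff_not_dvd hp).2 hy).symm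
    rwa [hcop.gcd_eq_one, pow_one] at h5
  rw [hc1, one_mul] at hcyw
  calc x * y = (x * y * x⁻¹) * x := by group
    _ = y * x := by rw [← hcyw]

end Cfsg.Agent.Lib.Helper64.SqFree
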