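import Mathlib

/-!
# A nilpotent group of squarefree order is cyclic (piece Q4a of S4130)
-/

namespace Cfsg.Agent.Lib.Helper64.SqFree

theorem isCyclic_of_nilpotent_squarefree {H : Type*} [Group H] [Finite H] [Group.IsNilpotent H]
    (h : Squarefree (Nat.card H)) : IsCyclic H := by
  have : IsZGroup H := IsZGroup.of_squarefree h
  infer_instance

end Cfsg.Agent.Lib.Helper64.SqFree
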