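import Mathlib

set_option autoImplicit false

/-!
# Piece F of the S5886 farm, part 1: quadratic extensions in characteristic two
-/

namespace Cfsg.Agent.Lib.Helper64.Ext

open Module

variable {F K : Type*} [Field F] [Field K] [Algebra F K]

/-- coordinates with respect to `1, θ` -/
theorem exists_coords (hr : finrank F K = 2) (θ : K) (hθ : ∀ a : F, algebraMap F K a ≠ θ) :
    ∃ τ₀ τ : K →ₗ[F] F, (∀ x, x = algebraMap F K (τ₀ x) + algebraMap F K (τ x) * θ) ∧ τ θ = 1 ∧
      ∀ a, τ (algebraMap F K a) = 0 := by
  have hli : LinearIndependent F ![(1 : K), θ] := by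
    rw [LinearIndependent.pair_iff]
    intro s t hst
    have ht : t = 0 := by
      by_contra ht
      apply hθ (-(t⁻¹ * s))
      have h1 : algebraMap F K s + algebraMap F K t * θ = 0 := by
        simpa [Algebra.smul_def] using hst
      have ht' : algebraMap F K t ≠ 0 := by simpa using ht
      rw [map_neg, map_mul, map_inv₀]
      field_simp
      linear_combination -h1
    subst ht
    refine ⟨?_, rfl⟩
    simpa [Algebra.smul_def] using hst
  let B := basisOfLinearIndependentOfCardEqFinrank hli (by simp [hr])
  have hB : ∀ i, B i = ![(1 : K), θ] i := fun i => by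
    simp [B, coe_basisOfLinearIndependentOfCardEqFinrank]
  have hB0 : B 0 = 1 := hB 0
  have hB1 : B 1 = θ := hB 1
  refine ⟨B.coord 0, B.coord 1, ?_, ?_, ?_⟩
  · intro x
    have := B.sum_repr x
    rw [Fin.sum_univ_two, hB0, hB1] at this
    simp only [Basis.coord_apply]
    rw [← Algebra.smul_def, ← mul_one (algebraMap F K _), ← Algebra.smul_def]
    exact this.symm
  · rw [← hB1, Basis.coord_apply, Basis.repr_self]
    simp
  · intro a
    have : algebraMap F K a = a • B 0 := by rw [hB0, Algebra.smul_def, mul_one]
    rw [this, map_smul, Basis.coord_apply, Basis.repr_self]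
    simp

/-- the data of a quadratic extension in characteristic two -/
structure QData (F K : Type*) [Field F] [Field K] [Algebra F K] where
  k : K
  c : F
  σ : K →ₐ[F] K
  τ : K →ₗ[F] F
  hk : k * k + k = algebraMap F K c
  hστ : ∀ x, σ x = x + algebraMap F K (τ x)
  hdec : ∀ x, ∃ a : F, x = algebraMap F K a + algebraMap F K (τ x) * k
  hτk : τ k = 1
  hτF : ∀ a, τ (algebraMap F K a) = 0

theorem exists_qdata [Finite K] (hr : finrank F K = 2) (h2 : (2 : F) = 0) : Nonempty (QData F K) := by
  have h2K : (2 : K) = 0 := by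
    have h := congrArg (algebraMap F K) h2
    rwa [map_ofNat, map_zero] at h
  have hFfin : Finite F := Finite.of_injective (algebraMap F K) (algebraMap F K).injective
  have hchar : CharP F 2 := CharTwo.of_one_ne_zero_of_two_eq_zero one_ne_zero h2
  obtain ⟨θ, hθ⟩ : ∃ θ : K, ∀ a : F, algebraMap F K a ≠ θ := by
    by_contra hcon
    push Not at hcon
    have : finrank F K ≤ 1 := by
      apply finrank_le_one (1 : K)
      intro w
      obtain ⟨a, ha⟩ := hcon w
      exact ⟨a, by rw [Algebra.smul_def, mul_one, ha]⟩
    omega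
  obtain ⟨τ₀, τ, hdec, hτθ, hτF⟩ := exists_coords hr θ hθ
  have hsq := hdec (θ * θ)
  set t := τ (θ * θ) with ht
  set c₀ := τ₀ (θ * θ) with hc₀
  have ht0 : t ≠ 0 := by
    intro ht0
    rw [ht0, map_zero, zero_mul, add_zero] at hsq
    have := Fintype.ofFinite F
    obtain ⟨e, he⟩ := FiniteField.isSquare_of_char_two (ringChar.eq F 2) c₀
    rw [he, map_mul] at hsq
    rcases mul_self_eq_mul_self_iff.1 hsq with h | h
    · exact hθ e h.symm
    · exact hθ (-e) (by rw [map_neg]; exact h.symm)
  have ht0' : algebraMap F K t ≠ 0 := by simpa using ht0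
  set k : K := algebraMap F K t⁻¹ * θ with hkdef
  have hkF : ∀ a : F, algebraMap F K a ≠ k := by
    intro a ha
    apply hθ (t * a)
    rw [map_mul, ha, hkdef, map_inv₀, mul_inv_cancel_left₀ ht0']
  obtain ⟨τ₀', τ', hdec', hτk, hτF'⟩ := exists_coords hr k hkF
  have hk : k * k + k = algebraMap F K (t⁻¹ * t⁻¹ * c₀) := by
    rw [hkdef, map_mul, map_mul, map_inv₀]
    field_simp
    linear_combination hsq + algebraMap F K t * θ * h2K
  have hτlin : ∀ a b : F, τ' (algebraMap F K a + algebraMap F K b * k) = b := by
    intro a b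
    rw [map_add, hτF', ← Algebra.smul_def, map_smul, hτk]
    simp
  let σl : K →ₗ[F] K := LinearMap.id + (Algebra.linearMap F K) ∘ₗ τ'
  have hσl : ∀ x, σl x = x + algebraMap F K (τ' x) := fun x => rfl
  have hone : σl 1 = 1 := by
    rw [hσl]
    have := hτF' 1
    rw [map_one] at this
    rw [this, map_zero, add_zero]
  have hmul : ∀ x y, σl (x * y) = σl x * σl y := by
    intro x y
    rw [hσl, hσl, hσl]
    have hx := hdec' x
    have hy := hdec' y
    set a := τ₀' x
    set b := τ' x
    set a' := τ₀' y
    set b' := τ' y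
    have hxy : x * y = algebraMap F K (a * a' + b * b' * (t⁻¹ * t⁻¹ * c₀)) +
        algebraMap F K (a * b' + a' * b + b * b') * k := by
      rw [hx, hy]
      simp only [map_add, map_mul] at hk ⊢
      linear_combination (algebraMap F K b * algebraMap F K b') * hk -
        (algebraMap F K b * algebraMap F K b' * k) * h2K
    have hτxy : τ' (x * y) = a * b' + a' * b + b * b' := by rw [hxy, hτlin]
    rw [hτxy]
    simp only [map_add, map_mul]
    rw [hx, hy]
    linear_combination -(algebraMap F K b * algebraMap F K b' * k) * h2K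
  exact ⟨{ k := k
           c := t⁻¹ * t⁻¹ * c₀
           σ := AlgHom.ofLinearMap σl hone hmul
           τ := τ'
           hk := hk
           hστ := fun x => rfl
           hdec := fun x => ⟨τ₀' x, hdec' x⟩
           hτk := hτk
           hτF := hτF' }⟩

namespace QData

variable (D : QData F K)

theorem hσk : D.σ D.k = D.k + 1 := by
  rw [D.hστ, D.hτk, map_one]

theorem hσF (a : F) : D.σ (algebraMap F K a) = algebraMap F K a := D.σ.commutes a

theorem hσσ (h2 : (2 : K) = 0) (x : K) : D.σ (D.σ x) = x := by
  rw [D.hστ x, map_add, D.hσF, D.hστ]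
  linear_combination algebraMap F K (D.τ x) * h2

theorem c_ne : D.c ≠ 0 := by
  intro hc
  have h := D.hk
  rw [hc, map_zero] at h
  have h1 : D.k * (D.k + 1) = 0 := by linear_combination h
  have hτ1 : D.τ 1 = 0 := by
    have := D.hτF 1
    rwa [map_one] at this
  rcases mul_eq_zero.1 h1 with h0 | h0
  · have := D.hτk
    rw [h0, map_zero] at this
    exact zero_ne_one this
  · have h3 : D.k = -1 := by linear_combination h0
    have := D.hτk
    rw [h3, map_neg, hτ1, neg_zero] at this
    exact zero_ne_one this

end QData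

end Cfsg.Agent.Lib.Helper64.Ext
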