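import Mathlib
import Cfsg.Agent.Lib.Helper83.ExtBase
import Cfsg.Agent.Lib.Helper64.ExtF1

set_option autoImplicit false

/-!
# Piece F of the S5886 farm, part 2: coordinates, semilinear involutions, the bad case
-/

namespace Cfsg.Agent.Lib.Helper64.Ext

open Module Cfsg.Agent.Lib.Helper83.Ext

variable {F K V : Type*} [Field F] [Field K] [Algebra F K] [AddCommGroup V] [Module F V] [Module K V]
  [IsScalarTower F K V]

section coords

variable (b : Basis (Fin 2) K V)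

theorem coord_ext {x y : V} (h0 : b.coord 0 x = b.coord 0 y) (h1 : b.coord 1 x = b.coord 1 y) :
    x = y := by
  apply b.ext_elem
  intro i
  fin_cases i
  · exact h0
  · exact h1

theorem coord0_comb (p q : K) : b.coord 0 (p • b 0 + q • b 1) = p := by
  simp [Basis.coord_apply]

theorem coord1_comb (p q : K) : b.coord 1 (p • b 0 + q • b 1) = q := by
  simp [Basis.coord_apply]

theorem eq_comb (x : V) : x = b.coord 0 x • b 0 + b.coord 1 x • b 1 := by
  have := b.sum_repr x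
  rw [Fin.sum_univ_two] at this
  exact this.symm

/-- the semilinear map `x ↦ κ σ(x₀) b₀ + κ σ(x₁) b₁` -/
noncomputable def semiMap (D : QData F K) (κ : K) : V →ₗ[F] V :=
  ((LinearMap.mulLeft F κ ∘ₗ D.σ.toLinearMap) ∘ₗ (b.coord 0).restrictScalars F).smulRight (b 0) +
  ((LinearMap.mulLeft F κ ∘ₗ D.σ.toLinearMap) ∘ₗ (b.coord 1).restrictScalars F).smulRight (b 1)

theorem semiMap_apply (D : QData F K) (κ : K) (x : V) :
    semiMap b D κ x = (κ * D.σ (b.coord 0 x)) • b 0 + (κ * D.σ (b.coord 1 x)) • b 1 := rfl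

theorem semi_coord0 (D : QData F K) (κ : K) (x : V) :
    b.coord 0 (semiMap b D κ x) = κ * D.σ (b.coord 0 x) := by
  rw [semiMap_apply, coord0_comb]

theorem semi_coord1 (D : QData F K) (κ : K) (x : V) :
    b.coord 1 (semiMap b D κ x) = κ * D.σ (b.coord 1 x) := by
  rw [semiMap_apply, coord1_comb]

theorem two_eq_zero_K (h2 : (2 : F) = 0) : (2 : K) = 0 := by
  have h := congrArg (algebraMap F K) h2
  rwa [map_ofNat, map_zero] at h

theorem semi_mem {G : Subgroup (V ≃ₗ[F] V)} (hH : HasH K G) (h2 : (2 : F) = 0) (D : QData F K)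
    (κ : K) (hκ : κ * D.σ κ = 1) : semiMap b D κ ∈ MS G := by
  have h2K : (2 : K) = 0 := two_eq_zero_K h2
  have hinv : Function.Involutive (semiMap b D κ) := by
    intro x
    apply coord_ext b
    · rw [semi_coord0, semi_coord0, map_mul, D.hσσ h2K]
      linear_combination (b.coord 0 x) * hκ
    · rw [semi_coord1, semi_coord1, map_mul, D.hσσ h2K]
      linear_combination (b.coord 1 x) * hκ
  let e : V ≃ₗ[F] V := LinearEquiv.ofInvolutive (semiMap b D κ) hinv
  have he : ∀ x, e x = semiMap b D κ x := fun x => rfl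
  refine ⟨e, hH e ?_ ?_, ?_⟩
  · intro a
    refine ⟨D.σ a, fun x => ?_⟩
    rw [he, he]
    apply coord_ext b
    · rw [semi_coord0, (b.coord 0).map_smul, (b.coord 0).map_smul, semi_coord0, smul_eq_mul,
        smul_eq_mul, map_mul]
      ring
    · rw [semi_coord1, (b.coord 1).map_smul, (b.coord 1).map_smul, semi_coord1, smul_eq_mul,
        smul_eq_mul, map_mul]
      ring
  · have h1 : e * e = 1 := by
      apply LinearEquiv.ext
      intro x
      exact hinv x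
    have h3 : LinearEquiv.det e * LinearEquiv.det e = 1 := by rw [← map_mul, h1, map_one]
    have h4 : ((LinearEquiv.det e : Fˣ) : F) * ((LinearEquiv.det e : Fˣ) : F) = 1 := by
      have := congrArg Units.val h3
      simpa using this
    apply Units.ext
    have h5 : (((LinearEquiv.det e : Fˣ) : F) - 1) * (((LinearEquiv.det e : Fˣ) : F) - 1) = 0 := by
      linear_combination h4 + (1 - ((LinearEquiv.det e : Fˣ) : F)) * h2
    have h6 := mul_self_eq_zero.1 h5
    rw [Units.val_one]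
    exact sub_eq_zero.1 h6
  · rfl

end coords

/-- the algebra behind `W = y φ₂ y` -/
theorem W0_alg (σ : K →+* K) (k C ci X0 X1 : K) (hk : k * k + k = C) (hci : C * ci = 1)
    (h2K : (2 : K) = 0) (hσk : σ k = k + 1) (hσC : σ C = C) (hσci : σ ci = ci)
    (hσσ : ∀ z, σ (σ z) = z) :
    (k + C + 1) * ci * σ (X0 + C * (X1 + σ X1)) +
      C * ((k + C + 1) * ci * σ (X1 + (X0 + σ X0) + (X1 + σ X1)) +
        σ ((k + C + 1) * ci * σ (X1 + (X0 + σ X0) + (X1 + σ X1)))) =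
    X0 + σ (ci * (X0 + (k + 1) * X1)) * (k + 1) := by
  simp only [map_add, map_mul, map_one, hσk, hσC, hσci, hσσ]
  generalize σ X0 = S0
  generalize σ X1 = S1
  linear_combination (-ci*S1) * hk + (2*k*X0 + 4*k*X1 + 2*k*S0 + 4*k*S1 + 2*C*X0 + 4*C*X1 + 2*C*S0 + 4*C*S1 + 3*X0 + 6*X1 + 4*S0 + 4*S1) * hci + (-k*ci*S1 + k*X0 + 2*k*X1 + k*S0 + 2*k*S1 + C*X0 + 2*C*X1 + C*S0 + 2*C*S1 - ci*S1 + X0 + 3*X1 + 2*S0 + 2*S1) * h2K

theorem W1_alg (σ : K →+* K) (k C ci X0 X1 : K) (hci : C * ci = 1)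
    (h2K : (2 : K) = 0) (hσk : σ k = k + 1) (hσC : σ C = C) (hσci : σ ci = ci)
    (hσσ : ∀ z, σ (σ z) = z) :
    (k + C + 1) * ci * σ (X1 + (X0 + σ X0) + (X1 + σ X1)) +
      ((k + C + 1) * ci * σ (X0 + C * (X1 + σ X1)) +
        σ ((k + C + 1) * ci * σ (X0 + C * (X1 + σ X1)))) +
      ((k + C + 1) * ci * σ (X1 + (X0 + σ X0) + (X1 + σ X1)) +
        σ ((k + C + 1) * ci * σ (X1 + (X0 + σ X0) + (X1 + σ X1)))) =
    X1 + σ (ci * (X0 + (k + 1) * X1)) := by
  simp only [map_add, map_mul, map_one, hσk, hσC, hσci, hσσ]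
  generalize σ X0 = S0
  generalize σ X1 = S1
  linear_combination (2*k*X1 + 2*k*S1 + 2*C*X1 + 2*C*S1 + 4*X0 + 7*X1 + 4*S0 + 8*S1) * hci + (2*k*ci*X0 + 2*k*ci*X1 + 2*k*ci*S0 + 2*k*ci*S1 + k*X1 + k*S1 + C*X1 + C*S1 + 3*ci*X0 + 3*ci*X1 + 2*ci*S0 + 2*ci*S1 + 2*X0 + 3*X1 + 2*S0 + 4*S1) * h2K

theorem kap_alg (σ : K →+* K) (k C ci : K) (hk : k * k + k = C) (hci : C * ci = 1)
    (h2K : (2 : K) = 0) (hσk : σ k = k + 1) (hσC : σ C = C) (hσci : σ ci = ci) :
    (k + C + 1) * ci * σ ((k + C + 1) * ci) = 1 := by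
  simp only [map_add, map_mul, map_one, hσk, hσC, hσci]
  linear_combination (ci^2) * hk + (2*k*ci + C*ci + 4*ci + 1) * hci + (k*ci^2 + k*ci + ci^2 + 2*ci) * h2K

end Cfsg.Agent.Lib.Helper64.Ext
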