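import Mathlib
import Cfsg.Agent.Lib.Helper83.ExtBase
import Cfsg.Agent.Lib.Helper64.ExtF1
import Cfsg.Agent.Lib.Helper64.ExtF2

set_option autoImplicit false

/-!
# Piece F of the S5886 farm: `n = 4`, characteristic two
-/

namespace Cfsg.Agent.Lib.Helper64.Ext

open Module Cfsg.Agent.Lib.Helper83.Ext

variable {F K V : Type*} [Field F] [Field K] [Algebra F K] [AddCommGroup V] [Module F V] [Module K V]
  [IsScalarTower F K V]

/-- the bad case -/
theorem hasTv_of_bad [Finite K] {G : Subgroup (V ≃ₗ[F] V)} (hH : HasH K G)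
    (h2 : (2 : F) = 0) (D : QData F K) (b : Basis (Fin 2) K V)
    (y : Module.End F V) (hy : y ∈ MS G)
    (hy0 : ∀ x, b.coord 0 (y x) =
      b.coord 0 x + algebraMap F K D.c * (b.coord 1 x + D.σ (b.coord 1 x)))
    (hy1 : ∀ x, b.coord 1 (y x) =
      b.coord 1 x + (b.coord 0 x + D.σ (b.coord 0 x)) + (b.coord 1 x + D.σ (b.coord 1 x))) :
    HasTv G := by
  have hfd : FiniteDimensional F K := Module.Finite.of_finite
  have h2K : (2 : K) = 0 := two_eq_zero_K h2
  have hk : D.k * D.k + D.k = algebraMap F K D.c := D.hk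
  have hci : algebraMap F K D.c * algebraMap F K D.c⁻¹ = 1 := by
    rw [← map_mul, mul_inv_cancel₀ D.c_ne, map_one]
  have hσk : (D.σ : K →+* K) D.k = D.k + 1 := D.hσk
  have hσC : (D.σ : K →+* K) (algebraMap F K D.c) = algebraMap F K D.c := D.hσF _
  have hσci : (D.σ : K →+* K) (algebraMap F K D.c⁻¹) = algebraMap F K D.c⁻¹ := D.hσF _
  have hσσ : ∀ z, (D.σ : K →+* K) ((D.σ : K →+* K) z) = z := D.hσσ h2K
  have hκ := kap_alg (D.σ : K →+* K) D.k _ _ hk hci h2K hσk hσC hσci
  have hΦ := semi_mem b hH h2 D _ hκ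
  set κ : K := (D.k + algebraMap F K D.c + 1) * algebraMap F K D.c⁻¹ with hκdef
  let e : V := (D.k + 1) • b 0 + (1 : K) • b 1
  let η : Dual K V := algebraMap F K D.c⁻¹ • (b.coord 0 + (D.k + 1) • b.coord 1)
  have hηx : ∀ x, η x = algebraMap F K D.c⁻¹ * (b.coord 0 x + (D.k + 1) * b.coord 1 x) :=
    fun x => rfl
  have he0 : b.coord 0 e = D.k + 1 := coord0_comb b _ _
  have he1 : b.coord 1 e = 1 := coord1_comb b _ _
  have hηe : η e = 0 := by
    rw [hηx, he0, he1]
    linear_combination (algebraMap F K D.c⁻¹ * (D.k + 1)) * h2K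
  have hW0 : ∀ x, b.coord 0 (y (semiMap b D κ (y x))) = b.coord 0 x + D.σ (η x) * (D.k + 1) := by
    intro x
    rw [hy0, semi_coord0, semi_coord1, hy0, hy1, hηx]
    exact W0_alg (D.σ : K →+* K) D.k _ _ _ _ hk hci h2K hσk hσC hσci hσσ
  have hW1 : ∀ x, b.coord 1 (y (semiMap b D κ (y x))) = b.coord 1 x + D.σ (η x) := by
    intro x
    rw [hy1, semi_coord0, semi_coord1, hy0, hy1, hηx]
    exact W1_alg (D.σ : K →+* K) D.k _ _ _ _ hci h2K hσk hσC hσci hσσ
  have hT := MS_of_mem (kt_mem hH hηe)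
  have hP := MS_mul (MS_mul (MS_mul hy hΦ) hy) hT
  let f : Dual F V := D.τ ∘ₗ η.restrictScalars F
  have hfx : ∀ x, f x = D.τ (η x) := fun x => rfl
  have hfe : f e = 0 := by rw [hfx, hηe, map_zero]
  have hιτ : ∀ w, algebraMap F K (D.τ w) = D.σ w - w := by
    intro w
    rw [D.hστ]; ring
  refine ⟨f, e, hfe, ?_, ?_, (MS_tv_iff hfe).2 ?_⟩
  · intro h
    have h1 := LinearMap.congr_fun h ((algebraMap F K D.c * D.k) • b 0 + (0 : K) • b 1)
    rw [hfx, hηx, coord0_comb, coord1_comb, LinearMap.zero_apply] at h1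
    have h3 : algebraMap F K D.c⁻¹ * (algebraMap F K D.c * D.k + (D.k + 1) * 0) = D.k := by
      linear_combination D.k * hci
    rw [h3, D.hτk] at h1
    exact one_ne_zero h1
  · intro h
    rw [h, map_zero] at he1
    exact zero_ne_one he1
  · convert hP using 1
    apply LinearMap.ext
    intro x
    simp only [LinearMap.add_apply, Module.End.one_apply, LinearMap.smulRight_apply,
      Module.End.mul_apply, LinearEquiv.coe_coe, kt_apply]
    have hηT : η (x + η x • e) = η x := by
      rw [map_add, map_smul, hηe, smul_zero, add_zero]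
    apply coord_ext b
    · rw [hW0, hηT, map_add, map_add, ← algebraMap_smul K (f x) e, map_smul, map_smul, he0,
        smul_eq_mul, smul_eq_mul, hfx, hιτ]
      linear_combination (-(η x) * (D.k + 1)) * h2K
    · rw [hW1, hηT, map_add, map_add, ← algebraMap_smul K (f x) e, map_smul, map_smul, he1,
        smul_eq_mul, smul_eq_mul, hfx, hιτ]
      linear_combination (-(η x)) * h2K

theorem li_pair {x y : V} (hx : x ≠ 0) (hy : ∀ z : K, y ≠ z • x) :
    LinearIndependent K ![x, y] := by
  rw [LinearIndependent.pair_iff]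
  intro s t hst
  have ht : t = 0 := by
    by_contra ht
    apply hy (-(t⁻¹ * s))
    have h1 : t • y = -(s • x) := by
      rw [eq_neg_iff_add_eq_zero, add_comm]; exact hst
    calc y = t⁻¹ • (t • y) := by rw [smul_smul, inv_mul_cancel₀ ht, one_smul]
      _ = (-(t⁻¹ * s)) • x := by rw [h1, smul_neg, smul_smul, neg_smul]
  subst ht
  refine ⟨?_, rfl⟩
  rw [zero_smul, add_zero] at hst
  exact (smul_eq_zero.1 hst).resolve_right hx

theorem exists_basis_pair [FiniteDimensional K V] (hm : finrank K V = 2) {x y : V} (hx : x ≠ 0)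
    (hy : ∀ z : K, y ≠ z • x) : ∃ b : Basis (Fin 2) K V, b 0 = x ∧ b 1 = y := by
  refine ⟨basisOfLinearIndependentOfCardEqFinrank (li_pair hx hy) (by simp [hm]), ?_, ?_⟩
  · simp [coe_basisOfLinearIndependentOfCardEqFinrank]
  · simp [coe_basisOfLinearIndependentOfCardEqFinrank]

theorem hasTv_two_two [Finite K] [FiniteDimensional K V] (hr : finrank F K = 2)
    (hm : finrank K V = 2) (h2 : (2 : F) = 0) {G : Subgroup (V ≃ₗ[F] V)} (hH : HasH K G)
    {g : V ≃ₗ[F] V} (hg : g ∈ G) (hns : ¬ IsSemi K g) : HasTv G := by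
  have hfd : FiniteDimensional F K := Module.Finite.of_finite
  have h2K : (2 : K) = 0 := two_eq_zero_K h2
  obtain ⟨D⟩ := exists_qdata (K := K) hr h2
  obtain ⟨v, k0, hv⟩ := exists_nonpoint (by omega) hns
  have hsm : ∀ (p : K) (w : V), ∃ a : F, p • w = a • w + D.τ p • (D.k • w) ∧
      algebraMap F K a = p - algebraMap F K (D.τ p) * D.k := by
    intro p w
    obtain ⟨a, ha⟩ := D.hdec p
    refine ⟨a, ?_, by linear_combination -ha⟩
    conv_lhs => rw [ha]
    rw [add_smul, mul_smul, algebraMap_smul, algebraMap_smul]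
  have hvk : ∀ k' : K, g (D.k • v) ≠ k' • g v := by
    intro k' hk'
    obtain ⟨a, ha, -⟩ := hsm k0 v
    apply hv (algebraMap F K a + algebraMap F K (D.τ k0) * k')
    rw [ha, map_add, map_smul, map_smul, hk', add_smul, mul_smul, algebraMap_smul, algebraMap_smul]
  have hv0 : v ≠ 0 := by
    rintro rfl
    exact hvk 0 (by simp)
  have hgv0 : g v ≠ 0 := by simpa using hv0
  obtain ⟨b, hb0, hb1⟩ := exists_basis_pair hm hgv0 hvk
  have hιτ : ∀ w, algebraMap F K (D.τ w) = D.σ w - w := by
    intro w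
    rw [D.hστ]; ring
  -- coordinates of `g (z • v)`
  have hG0 : ∀ z : K, b.coord 0 (g (z • v)) = z - algebraMap F K (D.τ z) * D.k := by
    intro z
    obtain ⟨a, ha, ha'⟩ := hsm z v
    rw [ha, map_add, map_smul, map_smul, ← hb0, ← hb1, ← algebraMap_smul K a,
      ← algebraMap_smul K (D.τ z), coord0_comb, ha']
  have hG1 : ∀ z : K, b.coord 1 (g (z • v)) = algebraMap F K (D.τ z) := by
    intro z
    obtain ⟨a, ha, ha'⟩ := hsm z v
    rw [ha, map_add, map_smul, map_smul, ← hb0, ← hb1, ← algebraMap_smul K a,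
      ← algebraMap_smul K (D.τ z), coord1_comb]
  -- second basis
  have hw0 : ∀ z : K, g.symm (D.k • b 0) ≠ z • v := by
    intro z hz
    have h1 : D.k • b 0 + (0 : K) • b 1 = g (z • v) := by
      rw [← hz, LinearEquiv.apply_symm_apply, zero_smul, add_zero]
    have c0 := congrArg (b.coord 0) h1
    have c1 := congrArg (b.coord 1) h1
    rw [hG0, coord0_comb] at c0
    rw [hG1, coord1_comb] at c1
    rw [← c1, zero_mul, sub_zero] at c0
    rw [← c0, D.hτk, map_one] at c1
    exact zero_ne_one c1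
  obtain ⟨b', hb'0, hb'1⟩ := exists_basis_pair hm hv0 hw0
  have hη0v : b'.coord 1 v = 0 := by
    rw [← hb'0]; simp [Basis.coord_apply]
  have hη0w : b'.coord 1 (g.symm (D.k • b 0)) = 1 := by
    rw [← hb'1]; simp [Basis.coord_apply]
  set η0 : Dual K V := b'.coord 1 with hη0
  set z1 : K := η0 (g.symm (D.k • b 1)) with hz1
  have hζ : ∀ x, η0 (g.symm x) =
      algebraMap F K (D.τ (b.coord 0 x)) + algebraMap F K (D.τ (b.coord 1 x)) * z1 := by
    intro x
    obtain ⟨a0, ha0, -⟩ := hsm (b.coord 0 x) (b 0)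
    obtain ⟨a1, ha1, -⟩ := hsm (b.coord 1 x) (b 1)
    have hx : x = a0 • b 0 + D.τ (b.coord 0 x) • (D.k • b 0) +
        (a1 • b 1 + D.τ (b.coord 1 x) • (D.k • b 1)) := by
      rw [← ha0, ← ha1]; exact eq_comb b x
    have hs0 : g.symm (b 0) = v := by rw [hb0, LinearEquiv.symm_apply_apply]
    have hs1 : g.symm (b 1) = D.k • v := by rw [hb1, LinearEquiv.symm_apply_apply]
    have hgx : g.symm x = a0 • v + D.τ (b.coord 0 x) • g.symm (D.k • b 0) +
        (a1 • (D.k • v) + D.τ (b.coord 1 x) • g.symm (D.k • b 1)) := by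
      conv_lhs => rw [hx]
      rw [map_add, map_add, map_add, g.symm.map_smul a0, g.symm.map_smul a1,
        g.symm.map_smul (D.τ (b.coord 0 x)), g.symm.map_smul (D.τ (b.coord 1 x)), hs0, hs1]
    rw [hgx, map_add, map_add, map_add]
    simp only [LinearMap.map_smul_of_tower]
    rw [hη0v, hη0w, ← hz1]
    simp only [Algebra.smul_def, smul_eq_mul, mul_zero, mul_one, zero_add, add_zero]
  have hN : ∀ a : K, ∃ Y ∈ MS G, ∀ x, Y x = x + g ((η0 (g.symm x) * a) • v) := by
    intro a
    have h : η0 (a • v) = 0 := by rw [map_smul, hη0v, smul_zero]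
    refine ⟨_, MS_conj hg (MS_of_mem (kt_mem hH h)), fun x => ?_⟩
    simp only [LinearMap.comp_apply, LinearEquiv.coe_coe, kt_apply, map_add,
      LinearEquiv.apply_symm_apply, mul_smul]
  by_cases hz : z1 = D.k
  · -- bad case
    obtain ⟨Y, hY, hYx⟩ := hN D.k
    apply hasTv_of_bad hH h2 D b Y hY
    · intro x
      rw [hYx, map_add, hG0, hζ, hz, hιτ ((_ + _ * D.k) * D.k), D.hστ (b.coord 1 x)]
      simp only [map_add, map_mul, D.hσF, D.hσk]
      linear_combination (-(algebraMap F K (D.τ (b.coord 1 x)))) * D.hk +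
        (-(algebraMap F K D.c) * algebraMap F K (D.τ (b.coord 1 x)) -
          algebraMap F K D.c * b.coord 1 x) * h2K
    · intro x
      rw [hYx, map_add, hG1, hζ, hz, hιτ ((_ + _ * D.k) * D.k), D.hστ (b.coord 1 x),
        D.hστ (b.coord 0 x)]
      simp only [map_add, map_mul, D.hσF, D.hσk]
      linear_combination (D.k * algebraMap F K (D.τ (b.coord 1 x)) - b.coord 0 x -
        b.coord 1 x) * h2K
  · -- a transvection
    obtain ⟨Y, hY, hYx⟩ := hN 1
    have hφ := semi_mem b hH h2 D 1 (by simp)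
    let f : Dual F V := D.τ ∘ₗ (b.coord 1).restrictScalars F
    have hfx : ∀ x, f x = D.τ (b.coord 1 x) := fun x => rfl
    have hfc : f (g ((D.k + z1) • v)) = 0 := by rw [hfx, hG1, D.hτF]
    have hτσ : ∀ w, D.τ (D.σ w) = D.τ w := by
      intro w
      rw [D.hστ, map_add, D.hτF, add_zero]
    refine ⟨f, g ((D.k + z1) • v), hfc, ?_, ?_, (MS_tv_iff hfc).2 ?_⟩
    · intro h
      have h1 := LinearMap.congr_fun h ((0 : K) • b 0 + D.k • b 1)
      rw [hfx, coord1_comb, D.hτk, LinearMap.zero_apply] at h1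
      exact one_ne_zero h1
    · intro h
      have h1 : (D.k + z1) • v = 0 := by simpa using h
      have h3 := (smul_eq_zero.1 h1).resolve_right hv0
      apply hz
      linear_combination h3 - D.k * h2K
    · convert MS_mul hY hφ using 1
      apply LinearMap.ext
      intro x
      simp only [LinearMap.add_apply, Module.End.one_apply, LinearMap.smulRight_apply,
        Module.End.mul_apply]
      rw [hYx, hζ, semi_coord0, semi_coord1, one_mul, one_mul, hτσ, hτσ, mul_one]
      apply coord_ext b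
      · rw [map_add, map_add, ← algebraMap_smul K (f x), map_smul, smul_eq_mul, hG0, hG0,
          semi_coord0, one_mul, hfx, hιτ (D.k + z1), hιτ (_ + _ * z1), D.hστ (b.coord 0 x)]
        simp only [map_add, map_mul, D.hσF, D.hσk]
        linear_combination (-(algebraMap F K (D.τ (b.coord 0 x)))) * h2K
      · rw [map_add, map_add, ← algebraMap_smul K (f x), map_smul, smul_eq_mul, hG1, hG1,
          semi_coord1, one_mul, hfx, hιτ (D.k + z1), hιτ (_ + _ * z1), D.hστ (b.coord 1 x)]
        simp only [map_add, map_mul, D.hσF, D.hσk]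
        ring

end Cfsg.Agent.Lib.Helper64.Ext
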