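import Mathlib

set_option autoImplicit false

/-!
# Piece L of the S5886 farm: a `(K,K)`-sub-bimodule of `End_F K` stable under a twisted conjugation
-/

namespace Cfsg.Agent.Lib.Helper64.Ext

open Module

variable {F K : Type*} [Field F] [Field K] [Algebra F K]

/-- a functional on `End_F K` killing the rank one maps is zero -/
theorem eq_zero_of_smulRight [FiniteDimensional F K] (f : Module.End F K →ₗ[F] F)
    (h : ∀ (φ : Dual F K) (a : K), f (φ.smulRight a) = 0) : f = 0 := by
  apply LinearMap.ext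
  intro κ
  let b := Module.finBasis F K
  have hκ : κ = ∑ i, (b.coord i).smulRight (κ (b i)) := by
    apply LinearMap.ext
    intro x
    simp only [LinearMap.sum_apply, LinearMap.smulRight_apply, Basis.coord_apply]
    calc κ x = κ (∑ i, b.repr x i • b i) := by rw [b.sum_repr]
      _ = ∑ i, b.repr x i • κ (b i) := by rw [map_sum]; simp only [map_smul]
  rw [hκ, map_sum]
  simp [h]

theorem eq_zero_of_forall_mul (π : Dual F K) (hπ : π ≠ 0) (X : K) (h : ∀ β, π (β * X) = 0) :
    X = 0 := by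
  by_contra hX
  apply hπ
  apply LinearMap.ext
  intro y
  have := h (y * X⁻¹)
  rwa [mul_assoc, inv_mul_cancel₀ hX, mul_one] at this

theorem exists_mul_rep [FiniteDimensional F K] (π : Dual F K) (hπ : π ≠ 0) (ν : Dual F K) :
    ∃ c : K, ∀ x, ν x = π (c * x) := by
  let Φ : K →ₗ[F] Dual F K := (LinearMap.mul F K).compr₂ π
  have hΦ : ∀ c x, Φ c x = π (c * x) := fun c x => rfl
  have hinj : Function.Injective Φ := by
    rw [injective_iff_map_eq_zero]
    intro c hc
    apply eq_zero_of_forall_mul π hπ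
    intro β
    have := LinearMap.congr_fun hc β
    rw [hΦ] at this
    rw [mul_comm]
    simpa using this
  have hsurj : Function.Surjective Φ :=
    (LinearMap.injective_iff_surjective_of_finrank_eq_finrank
      (Subspace.dual_finrank_eq (K := F) (V := K)).symm).1 hinj
  obtain ⟨c, hc⟩ := hsurj ν
  exact ⟨c, fun x => by rw [← hc, hΦ]⟩

theorem exists_rho [FiniteDimensional F K] (f : Module.End F K →ₗ[F] F) :
    ∃ ρ : K →ₗ[F] K, ∀ (φ : Dual F K) (a : K), f (φ.smulRight a) = φ (ρ a) := by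
  let g : K →ₗ[F] Dual F (Dual F K) :=
    ((LinearMap.smulRightₗ : Dual F K →ₗ[F] K →ₗ[F] (K →ₗ[F] K)).compr₂ f).flip
  have hg : ∀ a φ, g a φ = f (φ.smulRight a) := fun a φ => rfl
  refine ⟨(Module.evalEquiv F K).symm.toLinearMap ∘ₗ g, fun φ a => ?_⟩
  rw [LinearMap.comp_apply, LinearEquiv.coe_coe, Module.apply_evalEquiv_symm_apply, hg]

theorem KK_top [Finite K] (hr : 2 ≤ finrank F K) (hne : ¬ (finrank F K = 2 ∧ (2 : F) = 0))
    (𝒦 : AddSubgroup (Module.End F K))
    (h1 : ∀ l : K, LinearMap.mulLeft F l ∈ 𝒦)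
    (hl : ∀ a : K, ∀ κ ∈ 𝒦, LinearMap.mulLeft F a * κ ∈ 𝒦)
    (hrr : ∀ a : K, ∀ κ ∈ 𝒦, κ * LinearMap.mulLeft F a ∈ 𝒦)
    (n : K) (π ν : Dual F K) (hn : n ≠ 0) (hπ : π ≠ 0) (hπn : π n = 0) (hν : ν 1 = 0)
    (hc : ∀ κ ∈ 𝒦, (1 + π.smulRight n) * κ * (1 - ν.smulRight 1) ∈ 𝒦) : ∀ κ, κ ∈ 𝒦 := by
  have hfd : FiniteDimensional F K := Module.Finite.of_finite
  by_contra hcon
  push Not at hcon
  obtain ⟨κ₀, hκ₀⟩ := hcon
  -- `𝒦` as a subspace
  let P : Submodule F (Module.End F K) :=
    { carrier := 𝒦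
      add_mem' := fun ha hb => 𝒦.add_mem ha hb
      zero_mem' := 𝒦.zero_mem
      smul_mem' := by
        intro t κ hκ
        have h2 := hl (algebraMap F K t) κ hκ
        have h3 : LinearMap.mulLeft F (algebraMap F K t) * κ = t • κ := by
          apply LinearMap.ext
          intro x
          simp [Algebra.smul_def]
        rw [h3] at h2
        exact h2 }
  have hP : ∀ κ, κ ∈ P ↔ κ ∈ 𝒦 := fun κ => Iff.rfl
  have hPlt : P < ⊤ := by
    rw [lt_top_iff_ne_top]
    intro htop
    apply hκ₀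
    rw [← hP, htop]
    trivial
  obtain ⟨f, hf0, hfP⟩ := Submodule.exists_le_ker_of_lt_top P hPlt
  have hf : ∀ κ ∈ 𝒦, f κ = 0 := fun κ hκ => hfP ((hP κ).2 hκ)
  obtain ⟨ρ, hρ⟩ := exists_rho f
  obtain ⟨c, hcν⟩ := exists_mul_rep π hπ ν
  -- `ρ ≠ 0`
  have hρ0 : ∃ a, ρ a ≠ 0 := by
    by_contra hall
    push Not at hall
    apply hf0
    apply eq_zero_of_smulRight
    intro φ a
    rw [hρ, hall, map_zero]
  -- the elements `D_λ`
  have hD : ∀ lam : K, (π ∘ₗ LinearMap.mulLeft F lam).smulRight n -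
      ν.smulRight (lam + π lam • n) ∈ 𝒦 := by
    intro lam
    have h2 := 𝒦.sub_mem (hc _ (h1 lam)) (h1 lam)
    convert h2 using 1
    apply LinearMap.ext
    intro x
    simp only [LinearMap.sub_apply, LinearMap.smulRight_apply, LinearMap.comp_apply,
      LinearMap.mulLeft_apply, Module.End.mul_apply, LinearMap.add_apply, Module.End.one_apply,
      map_sub, map_smul, mul_sub, mul_smul_comm, mul_one, smul_eq_mul]
    simp only [Algebra.smul_def, map_mul, map_sub]
    ring
  have hstar : ∀ α lam : K, lam * ρ (α * n) = c * ρ (α * (lam + π lam • n)) := by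
    intro α lam
    rw [← sub_eq_zero]
    apply eq_zero_of_forall_mul π hπ
    intro β
    have h2 := hf _ (hrr β _ (hl α _ (hD lam)))
    have h3 : LinearMap.mulLeft F α * ((π ∘ₗ LinearMap.mulLeft F lam).smulRight n -
        ν.smulRight (lam + π lam • n)) * LinearMap.mulLeft F β =
        ((π ∘ₗ LinearMap.mulLeft F lam) ∘ₗ LinearMap.mulLeft F β).smulRight (α * n) -
        (ν ∘ₗ LinearMap.mulLeft F β).smulRight (α * (lam + π lam • n)) := by
      apply LinearMap.ext
      intro x
      simp only [LinearMap.sub_apply, LinearMap.smulRight_apply, LinearMap.comp_apply,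
        LinearMap.mulLeft_apply, Module.End.mul_apply, mul_sub, mul_smul_comm]
    rw [h3, map_sub, hρ, hρ] at h2
    simp only [LinearMap.comp_apply, LinearMap.mulLeft_apply, hcν] at h2
    have h4 : β * (lam * ρ (α * n) - c * ρ (α * (lam + π lam • n))) =
        lam * (β * ρ (α * n)) - c * (β * ρ (α * (lam + π lam • n))) := by ring
    rw [h4, map_sub]
    exact h2
  -- `c = n`
  have hcn : c = n := by
    obtain ⟨a, ha⟩ := hρ0
    have h2 := hstar (a * n⁻¹) n
    rw [hπn, zero_smul, add_zero, mul_assoc, inv_mul_cancel₀ hn, mul_one] at h2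
    exact (mul_right_cancel₀ ha h2).symm
  subst hcn
  -- `S`, `l`
  have hS : ∀ α μ : K, ρ (α * μ * c) = μ * ρ (α * c) - π (c * μ) • ρ (α * c) := by
    intro α μ
    have h2 := hstar α (c * μ)
    have h3 : α * (c * μ + π (c * μ) • c) = α * μ * c + π (c * μ) • (α * c) := by
      rw [mul_add, mul_smul_comm]; ring
    rw [h3, map_add, map_smul, mul_assoc] at h2
    have h4 := mul_left_cancel₀ hn h2
    rw [h4]; ring
  set s := ρ c with hs
  have hS1 : ∀ μ : K, ρ (μ * c) = (μ - algebraMap F K (π (c * μ))) * s := by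
    intro μ
    have := hS 1 μ
    rw [one_mul, one_mul] at this
    rw [this, Algebra.smul_def]; ring
  have hs0 : s ≠ 0 := by
    intro hs0
    obtain ⟨a, ha⟩ := hρ0
    apply ha
    have := hS1 (a * c⁻¹)
    rwa [hs0, mul_zero, mul_assoc, inv_mul_cancel₀ hn, mul_one] at this
  have hchi : ∀ μ μ' : K, μ * μ' - algebraMap F K (π (c * (μ * μ'))) =
      (μ - algebraMap F K (π (c * μ))) * (μ' - algebraMap F K (π (c * μ'))) := by
    intro μ μ'
    apply mul_right_cancel₀ hs0
    rw [← hS1, hS μ μ', hS1 μ, Algebra.smul_def]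
    ring
  -- an element with `l μ = 1`
  obtain ⟨μ₁, hμ₁⟩ : ∃ μ₁ : K, π (c * μ₁) = 1 := by
    have : ∃ y, π y ≠ 0 := by
      by_contra hall
      push Not at hall
      exact hπ (LinearMap.ext hall)
    obtain ⟨y, hy⟩ := this
    refine ⟨(π y)⁻¹ • (c⁻¹ * y), ?_⟩
    rw [mul_smul_comm, mul_inv_cancel_left₀ hn, map_smul, smul_eq_mul, inv_mul_cancel₀ hy]
  by_cases h2 : (2 : F) = 0
  · -- `ker l ≤ F`
    apply hne
    refine ⟨le_antisymm ?_ hr, h2⟩
    let l : K →ₗ[F] F := π ∘ₗ LinearMap.mulLeft F c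
    have hl' : ∀ μ, l μ = π (c * μ) := fun μ => rfl
    have hker : LinearMap.ker l ≤ Submodule.span F {(1 : K)} := by
      intro μ' hμ'
      rw [LinearMap.mem_ker, hl'] at hμ'
      have h3 := hchi μ₁ μ'
      rw [hμ₁, hμ', map_zero, map_one, sub_zero] at h3
      have h4 : μ' = algebraMap F K (π (c * (μ₁ * μ'))) := by
        linear_combination h3
      rw [Submodule.mem_span_singleton]
      exact ⟨π (c * (μ₁ * μ')), by rw [Algebra.smul_def, mul_one]; exact h4.symm⟩
    have h5 := LinearMap.finrank_range_add_finrank_ker l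
    have h6 : finrank F (LinearMap.range l) ≤ 1 := by
      have := Submodule.finrank_le (LinearMap.range l)
      rwa [finrank_self] at this
    have h7 : finrank F (LinearMap.ker l) ≤ 1 := by
      have h8 := Submodule.finrank_mono hker
      have h9 : finrank F (Submodule.span F {(1 : K)}) = 1 := finrank_span_singleton one_ne_zero
      omega
    omega
  · have h3 := hchi μ₁ μ₁
    rw [hμ₁, map_one] at h3
    have h4 : algebraMap F K 2 * μ₁ = algebraMap F K (1 + π (c * (μ₁ * μ₁))) := by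
      rw [map_add, map_one, map_ofNat]
      linear_combination h3
    have h5 : μ₁ = algebraMap F K ((2 : F)⁻¹ * (1 + π (c * (μ₁ * μ₁)))) := by
      rw [map_mul, ← h4, ← mul_assoc, ← map_mul, inv_mul_cancel₀ h2, map_one, one_mul]
    have h6 : π (c * μ₁) = 0 := by
      rw [h5, mul_comm, ← Algebra.smul_def, map_smul, hπn, smul_zero]
    rw [hμ₁] at h6
    exact one_ne_zero h6

end Cfsg.Agent.Lib.Helper64.Ext
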