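import Mathlib
import Cfsg.Agent.Lib.Helper72.SylowCount

set_option autoImplicit false
open scoped Pointwise

namespace Cfsg.Agent.Lib.Helper64

open Subgroup Cfsg.Agent.Lib.Helper72

variable {G : Type*} [Group G]

theorem le_normalizer_of_conj_mem {A B : Subgroup G} (h : ∀ a ∈ A, ∀ b ∈ B, a * b * a⁻¹ ∈ B) :
    A ≤ normalizer (B : Set G) := by
  intro a ha
  rw [mem_normalizer_iff]
  intro b
  refine ⟨h a ha b, fun hb => ?_⟩
  have := h a⁻¹ (A.inv_mem ha) _ hb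
  simpa [mul_assoc] using this

/-- normalizers grow in `p`-groups (ambient version). -/
theorem exists_mem_normalizer_not_mem [Finite G] {p : ℕ} [Fact p.Prime] {Q Y : Subgroup G}
    (hY : IsPGroup p Y) (hlt : Q < Y) : ∃ y ∈ Y, y ∈ normalizer (Q : Set G) ∧ y ∉ Q := by
  have hnil : Group.IsNilpotent ↥Y := hY.isNilpotent
  have hne : Q.subgroupOf Y ≠ ⊤ := by
    intro h
    rw [subgroupOf_eq_top] at h
    exact hlt.not_ge h
  have h1 := Group.normalizerCondition_of_isNilpotent (G := ↥Y) (Q.subgroupOf Y) (lt_top_iff_ne_top.2 hne)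
  obtain ⟨y, hy1, hy2⟩ := SetLike.exists_of_lt h1
  refine ⟨y, y.2, ?_, fun h => hy2 (mem_subgroupOf.2 h)⟩
  rw [mem_normalizer_iff] at hy1 ⊢
  intro u
  constructor
  · intro hu
    have := (hy1 ⟨u, hlt.le hu⟩).1 (mem_subgroupOf.2 hu)
    exact mem_subgroupOf.1 this
  · intro hu
    have huY : u ∈ Y := by
      have h2 : (y : G)⁻¹ * ((y : G) * u * (y : G)⁻¹) * (y : G) ∈ Y :=
        Y.mul_mem (Y.mul_mem (Y.inv_mem y.2) (hlt.le hu)) y.2
      simpa [mul_assoc] using h2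
    have := (hy1 ⟨u, huY⟩).2 (mem_subgroupOf.2 hu)
    exact mem_subgroupOf.1 this

/-- every `p`-subgroup of `H` lies in a relative Sylow subgroup of `H`. -/
theorem exists_isSylowIn_ge [Finite G] {p : ℕ} [Fact p.Prime] {X H : Subgroup G}
    (hX : IsPGroup p X) (hXH : X ≤ H) : ∃ R : Subgroup G, IsSylowIn p R H ∧ X ≤ R := by
  obtain ⟨S, hS⟩ := (isPGroup_subgroupOf hX H).exists_le_sylow
  refine ⟨_, isSylowIn_of_sylow S, ?_⟩
  intro x hx
  exact ⟨⟨x, hXH hx⟩, hS (mem_subgroupOf.2 hx), rfl⟩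

/-- powers of `m * g` when `g` normalizes `C ∋ m`. -/
theorem exists_mul_pow_eq {C : Subgroup G} {g m : G} (hg : g ∈ normalizer (C : Set G)) (hm : m ∈ C)
    (j : ℕ) : ∃ m' ∈ C, (m * g) ^ j = m' * g ^ j := by
  induction j with
  | zero => exact ⟨1, C.one_mem, by simp⟩
  | succ j ih =>
    obtain ⟨m', hm', h⟩ := ih
    have hgj : g ^ j ∈ normalizer (C : Set G) := Subgroup.pow_mem _ hg j
    refine ⟨m' * (g ^ j * m * (g ^ j)⁻¹), C.mul_mem hm' ((mem_normalizer_iff.1 hgj m).1 hm), ?_⟩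
    rw [pow_succ, h, pow_succ]; group

/-- the `p'`-part of an element. -/
theorem exists_pow_prime_pow_coprime [Finite G] {p : ℕ} [hp : Fact p.Prime] (x : G) :
    ∃ k : ℕ, (orderOf (x ^ p ^ k)).Coprime p := by
  obtain ⟨k, t, ht, h⟩ := Nat.exists_eq_pow_mul_and_not_dvd (orderOf_pos x).ne' p hp.out.ne_one
  refine ⟨k, ?_⟩
  rw [orderOf_pow_of_dvd (pow_ne_zero _ hp.out.ne_zero) (h ▸ dvd_mul_right _ _), h,
    Nat.mul_div_cancel_left _ (pow_pos hp.out.pos k)]
  exact ((Nat.Prime.coprime_iff_not_dvd hp.out).2 ht).symm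

/-- a `p'`-element lies in any subgroup containing one of its `p`-power powers. -/
theorem mem_of_pow_prime_pow_mem {p : ℕ} {K : Subgroup G} {g : G}
    (hg : (orderOf g).Coprime p) {k : ℕ} (h : g ^ p ^ k ∈ K) : g ∈ K := by
  obtain ⟨m, hm⟩ := exists_pow_eq_self_of_coprime (x := g) (n := p ^ k) (Nat.Coprime.pow_left k hg.symm)
  rw [← hm]; exact K.pow_mem h m

/-- the stability group of the chain `Q ≥ U ≥ 1` inside `N(Q)`. -/
def chainStab (Q U : Subgroup G) : Subgroup G where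
  carrier := {h | h ∈ normalizer (Q : Set G) ∧ (∀ u ∈ Q, h * u * h⁻¹ * u⁻¹ ∈ U) ∧ ∀ u ∈ U, h * u = u * h}
  one_mem' := ⟨one_mem _, fun u _ => by simp, fun u _ => by simp⟩
  mul_mem' := by
    rintro a b ⟨ha1, ha2, ha3⟩ ⟨hb1, hb2, hb3⟩
    refine ⟨mul_mem ha1 hb1, fun u hu => ?_, fun u hu => ?_⟩
    · have h1 : a * b * u * (a * b)⁻¹ * u⁻¹ = (a * (b * u * b⁻¹ * u⁻¹)) * a⁻¹ * (a * u * a⁻¹ * u⁻¹) := by
        group
      rw [h1, ha3 _ (hb2 u hu), mul_inv_cancel_right]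
      exact U.mul_mem (hb2 u hu) (ha2 u hu)
    · rw [mul_assoc, hb3 u hu, ← mul_assoc, ha3 u hu, mul_assoc]
  inv_mem' := by
    rintro a ⟨ha1, ha2, ha3⟩
    refine ⟨inv_mem ha1, fun u hu => ?_, fun u hu => ?_⟩
    · have hu' : a⁻¹ * u * a ∈ Q := by
        have := (mem_normalizer_iff.1 (inv_mem ha1) u).1 hu
        simpa using this
      have h1 := U.inv_mem (ha2 _ hu')
      have h2 : (a * (a⁻¹ * u * a) * a⁻¹ * (a⁻¹ * u * a)⁻¹)⁻¹ = a⁻¹ * u * a⁻¹⁻¹ * u⁻¹ := by group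
      rwa [h2] at h1
    · have := ha3 u hu
      calc a⁻¹ * u = a⁻¹ * (u * a) * a⁻¹ := by group
        _ = a⁻¹ * (a * u) * a⁻¹ := by rw [this]
        _ = u * a⁻¹ := by group

theorem mem_chainStab {Q U : Subgroup G} {h : G} : h ∈ chainStab Q U ↔
    h ∈ normalizer (Q : Set G) ∧ (∀ u ∈ Q, h * u * h⁻¹ * u⁻¹ ∈ U) ∧ ∀ u ∈ U, h * u = u * h := Iff.rfl

theorem centralizer_inf_normalizer_le_chainStab (Q U : Subgroup G) (hU : U ≤ Q) :
    centralizer (Q : Set G) ≤ chainStab Q U := by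
  intro h hh
  have hc : ∀ u ∈ Q, h * u = u * h := fun u hu => ((mem_centralizer_iff.1 hh) u hu).symm
  refine ⟨?_, fun u hu => ?_, fun u hu => hc u (hU hu)⟩
  · rw [mem_normalizer_iff]
    intro u
    constructor
    · intro hu
      rw [hc u hu, mul_inv_cancel_right]; exact hu
    · intro hu
      have h2 := hc _ hu
      have h3 : u = h * u * h⁻¹ := by
        have : h * (h * u * h⁻¹) = h * u := by rw [h2]; group
        exact (mul_left_cancel this).symm
      rw [h3]; exact hu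
  · rw [hc u hu]; simp

theorem pow_card_mem_centralizer_of_mem_chainStab [Finite G] {Q U : Subgroup G} {c : G}
    (hc : c ∈ chainStab Q U) : c ^ Nat.card U ∈ centralizer (Q : Set G) := by
  obtain ⟨_, h2, h3⟩ := hc
  rw [mem_centralizer_iff]
  intro u hu
  have key : ∀ j : ℕ, c ^ j * u = (c * u * c⁻¹ * u⁻¹) ^ j * u * c ^ j := by
    intro j
    induction j with
    | zero => simp
    | succ j ih =>
      have hz := h3 _ (U.pow_mem (h2 u hu) j)
      calc c ^ (j + 1) * u = c * (c ^ j * u) := by rw [pow_succ']; group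
        _ = c * ((c * u * c⁻¹ * u⁻¹) ^ j * u * c ^ j) := by rw [ih]
        _ = (c * (c * u * c⁻¹ * u⁻¹) ^ j) * u * c ^ j := by group
        _ = ((c * u * c⁻¹ * u⁻¹) ^ j * c) * u * c ^ j := by rw [hz]
        _ = (c * u * c⁻¹ * u⁻¹) ^ j * (c * u * c⁻¹ * u⁻¹) * u * (c * c ^ j) := by group
        _ = _ := by rw [← pow_succ, ← pow_succ']
  have h4 : (c * u * c⁻¹ * u⁻¹) ^ Nat.card U = 1 := by
    have := pow_card_eq_one' (x := (⟨_, h2 u hu⟩ : U))
    exact congrArg Subtype.val this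
  rw [key, h4, one_mul]

theorem normalizer_le_normalizer_chainStab {Q U : Subgroup G}
    (hN : normalizer (Q : Set G) ≤ normalizer (U : Set G)) :
    normalizer (Q : Set G) ≤ normalizer (chainStab Q U : Set G) := by
  apply le_normalizer_of_conj_mem
  rintro t ht h ⟨h1, h2, h3⟩
  have htU := hN ht
  have hti : t⁻¹ ∈ normalizer (Q : Set G) := inv_mem ht
  have htiU := hN hti
  refine ⟨mul_mem (mul_mem ht h1) hti, fun u hu => ?_, fun u hu => ?_⟩
  · have hu' : t⁻¹ * u * t ∈ Q := by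
      have := (mem_normalizer_iff.1 hti u).1 hu
      simpa using this
    have h4 := (mem_normalizer_iff.1 htU _).1 (h2 _ hu')
    have h5 : t * (h * (t⁻¹ * u * t) * h⁻¹ * (t⁻¹ * u * t)⁻¹) * t⁻¹ =
        t * h * t⁻¹ * u * (t * h * t⁻¹)⁻¹ * u⁻¹ := by group
    rwa [h5] at h4
  · have hu' : t⁻¹ * u * t ∈ U := by
      have := (mem_normalizer_iff.1 htiU u).1 hu
      simpa using this
    have h4 := h3 _ hu'
    calc t * h * t⁻¹ * u = t * (h * (t⁻¹ * u * t)) * t⁻¹ := by group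
      _ = t * ((t⁻¹ * u * t) * h) * t⁻¹ := by rw [h4]
      _ = u * (t * h * t⁻¹) := by group

end Cfsg.Agent.Lib.Helper64
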