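import Mathlib
import Cfsg.Agent.Lib.Helper83.McBase

set_option autoImplicit false

namespace Cfsg.Agent.Lib.Helper64.Mc

open Module Cfsg.Agent.Lib.Helper83.Mc

variable {p : ℕ} [Fact p.Prime] {M N : Type*} [AddCommGroup M] [Module (ZMod p) M]
  [AddCommGroup N] [Module (ZMod p) N]
  {B : N →ₗ[ZMod p] M →ₗ[ZMod p] ZMod p} {A : M → N → Prop}

/-- (ST) -/
theorem sym_thin (hs : Sym B A)
    (thin : ∀ u φ φ', u ≠ 0 → φ ≠ 0 → A u φ → A u φ' → ∃ c : ZMod p, φ' = c • φ)
    {u v : M} {φ ψ : N} (hu0 : u ≠ 0) (hu : A u φ) (hφv : B φ v ≠ 0) (hv : A v ψ) (hψ : ψ ≠ 0) :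
    B ψ u ≠ 0 := by
  have hv0 : v ≠ 0 := by rintro rfl; simp at hφv
  obtain ⟨ψ₁, h1, h2⟩ := hs u v φ ψ hu0 hu hφv hv hψ
  obtain ⟨c, rfl⟩ := thin v ψ ψ₁ hv0 hψ hv h1
  intro h0
  apply h2
  simp [h0]

/-- (UN) -/
theorem uniq_thin
    (thin : ∀ u φ φ', u ≠ 0 → φ ≠ 0 → A u φ → A u φ' → ∃ c : ZMod p, φ' = c • φ)
    {x e : M} {ξ ξ' : N} (hx : x ≠ 0) (h : A x ξ) (h' : A x ξ') (he : B ξ e = B ξ' e)
    (hne : B ξ e ≠ 0) : ξ = ξ' := by
  have hξ : ξ ≠ 0 := by rintro rfl; simp at hne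
  obtain ⟨c, rfl⟩ := thin x ξ ξ' hx hξ h h'
  have h1 : B ξ e = c * B ξ e := by simpa using he
  have hc : c = 1 := by
    have : (c - 1) * B ξ e = 0 := by linear_combination -h1
    rcases mul_eq_zero.1 this with h2 | h2
    · linear_combination h2
    · exact absurd h2 hne
  rw [hc, one_smul]

/-- (RF) -/
theorem refl_add (S : Sys B A) {a b : M} {α β' : N} (ha : A a α) (hb : A b β')
    (h : B α b = - B β' a) (hne : B α b ≠ 0) (s : ZMod p) : A (b + s • a) (β' + s • α) := by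
  have hr := S.refl a ((s / B α b) • α) b β' (S.smulr _ ha) hb
  have e1 : B ((s / B α b) • α) b = s := by
    simp only [map_smul, LinearMap.smul_apply, smul_eq_mul]
    field_simp
  have e2 : β' - B β' a • (s / B α b) • α = β' + s • α := by
    have : B β' a = - B α b := by linear_combination h
    rw [this, smul_smul, sub_eq_add_neg, ← neg_smul]
    congr 2
    field_simp
  rw [e1, e2] at hr
  exact hr

theorem exists_beta (S : Sys B A) (hs : Sym B A) (hP : ∀ u, u ≠ 0 → Pt A u)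
    (thin : ∀ u φ φ', u ≠ 0 → φ ≠ 0 → A u φ → A u φ' → ∃ c : ZMod p, φ' = c • φ)
    {e : M} {ε : N} (he : e ≠ 0) (hε : ε ≠ 0) (heε : A e ε) :
    ∃ β : M → N, (∀ x, B ε x ≠ 0 → A x (β x) ∧ B (β x) e = - B ε x) ∧
      (∀ x y, B ε x ≠ 0 → B ε y ≠ 0 → B ε (x + y) ≠ 0 → β (x + y) = β x + β y) ∧
      (∀ z x ξ, B ε z ≠ 0 → B ε x = 0 → x ≠ 0 → A x ξ → B ξ z ≠ 0 →
        A x (β (z + x) - β z) ∧ β (z + x) ≠ β z) := by
  have hεe : B ε e = 0 := S.perp e ε heε
  have ne0 : ∀ x, B ε x ≠ 0 → x ≠ 0 := by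
    rintro x hx rfl; simp at hx
  have hex : ∀ x, ∃ b : N, B ε x ≠ 0 → (A x b ∧ B b e = - B ε x) := by
    intro x
    by_cases hx : B ε x = 0
    · exact ⟨0, fun h => absurd hx h⟩
    · obtain ⟨-, ξ, hξ, hA⟩ := hP x (ne0 x hx)
      have h1 : B ξ e ≠ 0 := sym_thin hs thin he heε hx hA hξ
      refine ⟨(- B ε x / B ξ e) • ξ, fun _ => ⟨S.smulr _ hA, ?_⟩⟩
      simp only [map_smul, LinearMap.smul_apply, smul_eq_mul]
      field_simp
  choose β hβ using hex
  have hβne : ∀ x, B ε x ≠ 0 → β x ≠ 0 := by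
    intro x hx h0
    have := (hβ x hx).2
    rw [h0] at this
    simp only [map_zero, LinearMap.zero_apply] at this
    exact hx (by linear_combination this)
  -- (E)
  have hE : ∀ (x : M) (t : ZMod p), B ε x ≠ 0 → β (x + t • e) = β x + t • ε := by
    intro x t hx
    have h1 : B ε (x + t • e) = B ε x := by simp [hεe]
    have h2 : B ε (x + t • e) ≠ 0 := by rw [h1]; exact hx
    have h3 : A (x + t • e) (β x + t • ε) :=
      refl_add S heε (hβ x hx).1 (by rw [(hβ x hx).2]; ring) hx t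
    refine uniq_thin (B := B) thin (ne0 _ h2) (hβ _ h2).1 h3 (e := e) ?_ ?_
    · rw [(hβ _ h2).2, h1]
      simp [(hβ x hx).2, hεe]
    · rw [(hβ _ h2).2, h1]
      exact neg_ne_zero.2 hx
  -- (TRI)
  have hTRI : ∀ x y, B ε x ≠ 0 → B ε y ≠ 0 → B (β x) y = - B (β y) x := by
    intro x y hx hy
    set s₀ : ZMod p := - B (β x) y / B ε y with hs₀
    have h1 : B ε (x + s₀ • e) = B ε x := by simp [hεe]
    have h2 : B ε (x + s₀ • e) ≠ 0 := by rw [h1]; exact hx
    have h3 : B (β (x + s₀ • e)) y = 0 := by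
      rw [hE x s₀ hx]
      simp only [map_add, map_smul, LinearMap.add_apply, LinearMap.smul_apply, smul_eq_mul, hs₀]
      field_simp
      ring
    have h4 : B (β y) (x + s₀ • e) = 0 := by
      by_contra hne
      exact sym_thin hs thin (ne0 y hy) (hβ y hy).1 hne (hβ _ h2).1 (hβne _ h2) h3
    simp only [map_add, map_smul, smul_eq_mul, (hβ y hy).2] at h4
    have h5 : s₀ * B ε y = - B (β x) y := by
      rw [hs₀]; field_simp
    linear_combination h4 + h5
  -- (ADD), first case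
  have hADD1 : ∀ x y, B ε x ≠ 0 → B ε y ≠ 0 → B ε (x + y) ≠ 0 → B (β x) y ≠ 0 →
      β (x + y) = β x + β y := by
    intro x y hx hy hxy hne
    have h1 : B (β y) x = - B (β x) y := hTRI y x hy hx
    have h2 : A (x + (1 : ZMod p) • y) (β x + (1 : ZMod p) • β y) :=
      refl_add S (hβ y hy).1 (hβ x hx).1 h1 (by rw [h1]; exact neg_ne_zero.2 hne) 1
    rw [one_smul, one_smul] at h2
    refine uniq_thin (B := B) thin (ne0 _ hxy) (hβ _ hxy).1 h2 (e := e) ?_ ?_
    · rw [(hβ _ hxy).2]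
      simp only [map_add, LinearMap.add_apply, (hβ x hx).2, (hβ y hy).2]
      ring
    · rw [(hβ _ hxy).2]
      exact neg_ne_zero.2 hxy
  refine ⟨β, hβ, ?_, ?_⟩
  · intro x y hx hy hxy
    by_cases hne : B (β x) y = 0
    · have hx' : B ε (x + (1 : ZMod p) • e) ≠ 0 := by simpa [hεe] using hx
      have hy' : B ε (y + (-1 : ZMod p) • e) ≠ 0 := by simpa [hεe] using hy
      have hsum : (x + (1 : ZMod p) • e) + (y + (-1 : ZMod p) • e) = x + y := by
        simp only [one_smul, neg_smul]; abel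
      have h1 : B (β (x + (1 : ZMod p) • e)) (y + (-1 : ZMod p) • e) ≠ 0 := by
        rw [hE x 1 hx]
        have : B (β x + (1 : ZMod p) • ε) (y + (-1 : ZMod p) • e) = B ε (x + y) := by
          simp only [map_add, map_smul, LinearMap.add_apply, LinearMap.smul_apply, smul_eq_mul,
            hne, (hβ x hx).2, hεe]
          ring
        rw [this]; exact hxy
      have h2 := hADD1 _ _ hx' hy' (by rw [hsum]; exact hxy) h1
      rw [hsum, hE x 1 hx, hE y (-1) hy] at h2
      rw [h2]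
      simp only [one_smul, neg_smul]; abel
    · exact hADD1 x y hx hy hxy hne
  · intro z x ξ hz hx hx0 hA hξz
    have hξ : ξ ≠ 0 := by rintro rfl; simp at hξz
    have hr : B (β z) x ≠ 0 := sym_thin hs thin hx0 hA hξz (hβ z hz).1 (hβne z hz)
    set ξ' : N := (- B (β z) x / B ξ z) • ξ with hξ'
    have hA' : A x ξ' := S.smulr _ hA
    have h1 : B ξ' z = - B (β z) x := by
      simp only [hξ', map_smul, LinearMap.smul_apply, smul_eq_mul]
      field_simp
    have h2 : A (z + (1 : ZMod p) • x) (β z + (1 : ZMod p) • ξ') :=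
      refl_add S hA' (hβ z hz).1 h1 (by rw [h1]; exact neg_ne_zero.2 hr) 1
    rw [one_smul, one_smul] at h2
    have h3 : B ξ' e = 0 := by
      by_contra hne
      exact sym_thin hs thin hx0 hA' hne heε hε hx
    have hzx : B ε (z + x) ≠ 0 := by simpa [hx] using hz
    have h4 : β (z + x) = β z + ξ' := by
      refine uniq_thin (B := B) thin (ne0 _ hzx) (hβ _ hzx).1 h2 (e := e) ?_ ?_
      · rw [(hβ _ hzx).2]
        simp only [map_add, LinearMap.add_apply, (hβ z hz).2, h3, hx]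
        ring
      · rw [(hβ _ hzx).2]
        exact neg_ne_zero.2 hzx
    constructor
    · rw [h4, add_sub_cancel_left]; exact hA'
    · rw [h4]
      intro h5
      have h6 : ξ' = 0 := by simpa using h5
      rw [h6] at h1
      simp only [map_zero, LinearMap.zero_apply] at h1
      exact hr (by linear_combination h1)

end Cfsg.Agent.Lib.Helper64.Mc
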