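import Mathlib
import Cfsg.Agent.Lib.Helper64.MetaSub

set_option autoImplicit false

namespace Cfsg.Agent.Lib.Helper64

open Subgroup

variable {G : Type*} [Group G]

/-- the Chermak–Delgado measure `|R| · |C_G(R)|`. -/
noncomputable def cdMeasure (R : Subgroup G) : ℕ :=
  Nat.card ↥R * Nat.card ↥(centralizer (R : Set G))

namespace MetaData

variable {p : ℕ} {a b : G} {κ m k n : ℕ}

theorem relIndex_centralizer_le_p [Finite G] [hp : Fact p.Prime] (hp2 : p ≠ 2) (hG : IsPGroup p G)
    (D : MetaData p a b κ m k n) (R : Subgroup G) (g : G) (hg : g ^ p ∈ R) :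
    (centralizer ({g} : Set G)).relIndex (centralizer (R : Set G)) ≤ p := by
  have h1 := relIndex_centralizer_le (centralizer (R : Set G)) g
    (zpowers (a ^ p ^ (m - 1)) : Set G) (Set.toFinite _) (by
      intro c hc
      obtain ⟨ρ, hρ1, hρ⟩ := D.exists_conj_exponent g
      have h2 := commutator_pow_right c g ρ (D.commutator_mem' c g) hρ p
      have h3 : c * g ^ p * c⁻¹ * (g ^ p)⁻¹ = 1 := by
        have := (mem_centralizer_iff.1 hc) (g ^ p) hg
        rw [← this]; group
      rw [h3] at h2
      obtain ⟨e, he⟩ := IsPGroup.iff_orderOf.1 hG (c * g * c⁻¹ * g⁻¹)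
      have h4 := orderOf_dvd_of_pow_eq_one h2.symm
      rw [he, pow_dvd_geo_iff hp2 hρ1, ← he, orderOf_dvd_iff_pow_eq_one] at h4
      exact mem_zpowers_pow_of_pow_eq_one D.ha (D.commutator_mem' c g) (by simpa using h4))
  refine h1.trans ?_
  rw [← Nat.card_coe_set_eq]
  have h5 : Nat.card ↥(zpowers (a ^ p ^ (m - 1))) = p ^ (m - (m - 1)) :=
    (Nat.card_zpowers _).trans (orderOf_pow_prime_pow D.ha (by omega))
  refine (le_of_eq h5).trans ?_
  calc p ^ (m - (m - 1)) ≤ p ^ 1 := Nat.pow_le_pow_right hp.out.pos (by omega)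
    _ = p := pow_one p

theorem exists_lt_cdMeasure_le [Finite G] [hp : Fact p.Prime] (hp2 : p ≠ 2) (hG : IsPGroup p G)
    (D : MetaData p a b κ m k n) {R R1 : Subgroup G} (h : R < R1) :
    ∃ R' : Subgroup G, R < R' ∧ R' ≤ R1 ∧ cdMeasure R ≤ cdMeasure R' := by
  classical
  obtain ⟨g0, hg0, hg0'⟩ := SetLike.exists_of_lt h
  have hex : ∃ e : ℕ, g0 ^ p ^ e ∈ R := by
    obtain ⟨E, hE⟩ := hG g0
    exact ⟨E, hE ▸ R.one_mem⟩
  have he0 : Nat.find hex ≠ 0 := by
    intro h0
    have := Nat.find_spec hex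
    rw [h0, pow_zero, pow_one] at this
    exact hg0' this
  obtain ⟨e, he⟩ := Nat.exists_eq_succ_of_ne_zero he0
  have hg1 : g0 ^ p ^ e ∉ R := Nat.find_min hex (by omega)
  have hg2 : (g0 ^ p ^ e) ^ p ∈ R := by
    have := Nat.find_spec hex
    rwa [he, Nat.succ_eq_add_one, pow_succ, pow_mul] at this
  set g := g0 ^ p ^ e with hgdef
  have hgR1 : g ∈ R1 := R1.pow_mem hg0 _
  refine ⟨R ⊔ zpowers g, ?_, sup_le h.le (zpowers_le.2 hgR1), ?_⟩
  · refine lt_of_le_of_ne le_sup_left ?_
    intro heq
    apply hg1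
    rw [heq]
    exact (le_sup_right : zpowers g ≤ R ⊔ zpowers g) (mem_zpowers g)
  · have hlt : R < R ⊔ zpowers g := by
      refine lt_of_le_of_ne le_sup_left ?_
      intro heq
      apply hg1
      rw [heq]
      exact (le_sup_right : zpowers g ≤ R ⊔ zpowers g) (mem_zpowers g)
    -- cardinalities
    obtain ⟨y, hy⟩ := (hG.to_subgroup R).exists_card_eq
    obtain ⟨x, hx⟩ := (hG.to_subgroup (R ⊔ zpowers g)).exists_card_eq
    have hxy : y < x := by
      by_contra hle
      have : Nat.card ↥(R ⊔ zpowers g) ≤ Nat.card ↥R := by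
        rw [hx, hy]; exact Nat.pow_le_pow_right hp.out.pos (by omega)
      exact hlt.ne (Subgroup.eq_of_le_of_card_ge hlt.le this)
    have hc1 : p * Nat.card ↥R ≤ Nat.card ↥(R ⊔ zpowers g) := by
      rw [hx, hy, ← pow_succ']; exact Nat.pow_le_pow_right hp.out.pos (by omega)
    have hle : centralizer ({g} : Set G) ⊓ centralizer (R : Set G) ≤
        centralizer ((R ⊔ zpowers g : Subgroup G) : Set G) := by
      rw [le_centralizer_iff]
      apply sup_le
      · rw [← le_centralizer_iff]; exact inf_le_right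
      · rw [zpowers_le, mem_centralizer_iff]
        intro c hc
        have := mem_centralizer_singleton_iff.1 (mem_inf.1 hc).1
        exact this
    have hc2 : Nat.card ↥(centralizer (R : Set G)) ≤
        p * Nat.card ↥(centralizer ((R ⊔ zpowers g : Subgroup G) : Set G)) := by
      have h1 := relIndex_mul_card (inf_le_right :
        centralizer ({g} : Set G) ⊓ centralizer (R : Set G) ≤ centralizer (R : Set G))
      rw [inf_relIndex_right] at h1
      rw [← h1]
      exact Nat.mul_le_mul (D.relIndex_centralizer_le_p hp2 hG R g hg2) (Subgroup.card_le_of_le hle)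
    unfold cdMeasure
    calc Nat.card ↥R * Nat.card ↥(centralizer (R : Set G))
        ≤ Nat.card ↥R * (p * Nat.card ↥(centralizer ((R ⊔ zpowers g : Subgroup G) : Set G))) :=
          Nat.mul_le_mul_left _ hc2
      _ = (p * Nat.card ↥R) * Nat.card ↥(centralizer ((R ⊔ zpowers g : Subgroup G) : Set G)) := by
          ring
      _ ≤ _ := Nat.mul_le_mul_right _ hc1

theorem cdMeasure_mono [Finite G] [hp : Fact p.Prime] (hp2 : p ≠ 2) (hG : IsPGroup p G)
    (D : MetaData p a b κ m k n) {R R1 : Subgroup G} (h : R ≤ R1) :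
    cdMeasure R ≤ cdMeasure R1 := by
  induction R using WellFoundedGT.induction with
  | ind R ih =>
    rcases h.eq_or_lt with rfl | hlt
    · exact le_rfl
    · obtain ⟨R', h1, h2, h3⟩ := D.exists_lt_cdMeasure_le hp2 hG hlt
      exact h3.trans (ih R' h1 h2)

end MetaData

theorem cdMeasure_top : cdMeasure (⊤ : Subgroup G) = Nat.card G * Nat.card (center G) := by
  unfold cdMeasure
  rw [Subgroup.card_top, coe_top, centralizer_univ]

theorem cdMeasure_center : cdMeasure (center G) = Nat.card G * Nat.card (center G) := by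
  unfold cdMeasure
  rw [centralizer_eq_top_iff_subset.2 (le_refl (center G)), Subgroup.card_top, mul_comm]

namespace MetaData

variable {p : ℕ} {a b : G} {κ m k n : ℕ}

theorem cdMeasure_le [Finite G] [hp : Fact p.Prime] (hp2 : p ≠ 2) (hG : IsPGroup p G)
    (D : MetaData p a b κ m k n) (R : Subgroup G) :
    cdMeasure R ≤ Nat.card G * Nat.card (center G) :=
  cdMeasure_top (G := G) ▸ D.cdMeasure_mono hp2 hG le_top

theorem cdMeasure_eq_of_center_le [Finite G] [hp : Fact p.Prime] (hp2 : p ≠ 2) (hG : IsPGroup p G)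
    (D : MetaData p a b κ m k n) {R : Subgroup G} (h : center G ≤ R) :
    cdMeasure R = Nat.card G * Nat.card (center G) :=
  le_antisymm (D.cdMeasure_le hp2 hG R) (cdMeasure_center (G := G) ▸ D.cdMeasure_mono hp2 hG h)

theorem cdMeasure_eq_iff [Finite G] [hp : Fact p.Prime] (hp2 : p ≠ 2) (hG : IsPGroup p G)
    (D : MetaData p a b κ m k n) (R : Subgroup G) :
    cdMeasure R = Nat.card G * Nat.card (center G) ↔ center G ≤ R := by
  refine ⟨fun h => ?_, D.cdMeasure_eq_of_center_le hp2 hG⟩
  have h1 := D.cdMeasure_eq_of_center_le hp2 hG (le_sup_right : center G ≤ R ⊔ center G)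
  have h2 : centralizer ((R ⊔ center G : Subgroup G) : Set G) = centralizer (R : Set G) := by
    apply le_antisymm
    · exact centralizer_le (le_sup_left : R ≤ R ⊔ center G)
    · rw [le_centralizer_iff]
      apply sup_le
      · rw [← le_centralizer_iff]
      · exact center_le_centralizer _
  unfold cdMeasure at h h1
  rw [h2, ← h] at h1
  have h3 : Nat.card ↥(R ⊔ center G) = Nat.card ↥R :=
    Nat.eq_of_mul_eq_mul_right Nat.card_pos h1
  have h4 : R = R ⊔ center G := Subgroup.eq_of_le_of_card_ge le_sup_left h3.le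
  rw [h4]; exact le_sup_right

end MetaData

end Cfsg.Agent.Lib.Helper64
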