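import Mathlib

set_option autoImplicit false

/-!
# Piece B3 of the S5283/S5284 farm
-/

namespace Cfsg.Agent.Lib.Helper64.SS

open Subgroup

variable {Ω : Type*} [Group Ω]

/-- the exponents `k` such that `x ^ k * u ∈ R` for some `u ∈ C` -/
def expSub (C R : Subgroup Ω) (x : Ω) (hx : x ∈ normalizer (C : Set Ω)) : AddSubgroup ℤ where
  carrier := {k | ∃ u ∈ C, x ^ k * u ∈ R}
  zero_mem' := ⟨1, C.one_mem, by simp⟩
  add_mem' := by
    rintro k l ⟨u, hu, hku⟩ ⟨u', hu', hlu⟩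
    have hxl : x ^ (-l) ∈ normalizer (C : Set Ω) := zpow_mem hx _
    refine ⟨x ^ (-l) * u * (x ^ (-l))⁻¹ * u', C.mul_mem ((mem_normalizer_iff.1 hxl u).1 hu) hu', ?_⟩
    have e : x ^ (k + l) * (x ^ (-l) * u * (x ^ (-l))⁻¹ * u') = (x ^ k * u) * (x ^ l * u') := by
      rw [zpow_add, zpow_neg]; group
    rw [e]
    exact R.mul_mem hku hlu
  neg_mem' := by
    rintro k ⟨u, hu, hku⟩
    have hxk : x ^ k ∈ normalizer (C : Set Ω) := zpow_mem hx _
    refine ⟨x ^ k * u⁻¹ * (x ^ k)⁻¹, (mem_normalizer_iff.1 hxk _).1 (C.inv_mem hu), ?_⟩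
    have e : x ^ (-k) * (x ^ k * u⁻¹ * (x ^ k)⁻¹) = (x ^ k * u)⁻¹ := by
      rw [zpow_neg]; group
    rw [e]
    exact R.inv_mem hku

theorem mem_expSub (C R : Subgroup Ω) (x : Ω) (hx : x ∈ normalizer (C : Set Ω)) (k : ℤ) :
    k ∈ expSub C R x hx ↔ ∃ u ∈ C, x ^ k * u ∈ R := Iff.rfl

theorem exists_zpowers_subgroupOf (C P : Subgroup Ω) (x : Ω)
    (hx : ∀ y ∈ C, x * y * x⁻¹ ∈ C ∧ x⁻¹ * y * x ∈ C) :
    ∃ y : P, (C ⊔ Subgroup.zpowers x).subgroupOf P = C.subgroupOf P ⊔ Subgroup.zpowers y := by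
  have hxN : x ∈ normalizer (C : Set Ω) := by
    rw [mem_normalizer_iff]
    intro h
    refine ⟨fun hh => (hx h hh).1, fun hh => ?_⟩
    have := (hx _ hh).2
    have e : x⁻¹ * (x * h * x⁻¹) * x = h := by group
    rwa [e] at this
  obtain ⟨d, hd⟩ := Int.subgroup_cyclic (expSub C P x hxN)
  have hdmem : d ∈ expSub C P x hxN := by
    rw [hd]; exact AddSubgroup.subset_closure rfl
  obtain ⟨u0, hu0, hdu⟩ := hdmem
  refine ⟨⟨x ^ d * u0, hdu⟩, le_antisymm ?_ ?_⟩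
  · intro z hz
    rw [mem_subgroupOf] at hz
    -- `z = x ^ k * u`
    have hle : zpowers x ≤ normalizer (C : Set Ω) := by
      rw [zpowers_le]; exact hxN
    have hz' : (z : Ω) ∈ ((zpowers x ⊔ C : Subgroup Ω) : Set Ω) := by
      rw [sup_comm]; exact hz
    rw [coe_mul_of_left_le_normalizer_right _ _ hle] at hz'
    obtain ⟨a, ⟨k, rfl⟩, u, hu, hzu⟩ := hz'
    simp only at hzu
    set Q : Subgroup P := C.subgroupOf P ⊔ Subgroup.zpowers (⟨x ^ d * u0, hdu⟩ : P) with hQ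
    have hkP : k ∈ expSub C P x hxN := ⟨u, hu, by rw [hzu]; exact z.2⟩
    have hdQ : d ∈ expSub C (Q.map P.subtype) x hxN :=
      ⟨u0, hu0, ⟨⟨x ^ d * u0, hdu⟩, (le_sup_right : _ ≤ Q) (mem_zpowers _), rfl⟩⟩
    have hkQ : k ∈ expSub C (Q.map P.subtype) x hxN := by
      rw [hd] at hkP
      exact (AddSubgroup.closure_le _).2 (Set.singleton_subset_iff.2 hdQ) hkP
    obtain ⟨u', hu', w, hw, hwu⟩ := hkQ
    have hwu' : (w : Ω) = x ^ k * u' := hwu
    have h1 : w⁻¹ * z ∈ C.subgroupOf P := by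
      rw [mem_subgroupOf]
      have e : ((w⁻¹ * z : P) : Ω) = u'⁻¹ * u := by
        rw [Subgroup.coe_mul, Subgroup.coe_inv, hwu', ← hzu]; group
      rw [e]
      exact C.mul_mem (C.inv_mem hu') hu
    have h2 : z = w * (w⁻¹ * z) := by group
    rw [h2]
    exact Q.mul_mem hw ((le_sup_left : _ ≤ Q) h1)
  · rw [sup_le_iff]
    constructor
    · intro z hz
      rw [mem_subgroupOf] at hz ⊢
      exact (le_sup_left : C ≤ C ⊔ zpowers x) hz
    · rw [zpowers_le, mem_subgroupOf]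
      exact mul_mem ((le_sup_right : zpowers x ≤ C ⊔ zpowers x) (zpow_mem (mem_zpowers x) d))
        ((le_sup_left : C ≤ C ⊔ zpowers x) hu0)

end Cfsg.Agent.Lib.Helper64.SS
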