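import Mathlib

set_option autoImplicit false

/-!
# Piece C1 of the S5283/S5284 farm
-/

namespace Cfsg.Agent.Lib.Helper64.SS

open Subgroup

section gen

variable (A K : Type*) [CommGroup A] [CommGroup K]

/-- `((a,b),k) ↦ ((b,a⁻¹),k)` -/
def rho : MulAut ((A × A) × K) :=
  MulEquiv.prodCongr (MulEquiv.prodComm.trans (MulEquiv.prodCongr (MulEquiv.refl A) (MulEquiv.inv A)))
    (MulEquiv.refl K)

/-- `((a,b),k) ↦ ((b,a),k)` -/
def swp : MulAut ((A × A) × K) := MulEquiv.prodCongr MulEquiv.prodComm (MulEquiv.refl K)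

/-- `((a,b),k) ↦ ((b⁻¹,a b⁻¹),k)` -/
def sig0 : MulAut (A × A) where
  toFun x := (x.2⁻¹, x.1 * x.2⁻¹)
  invFun x := (x.2 * x.1⁻¹, x.1⁻¹)
  left_inv x := by ext <;> simp
  right_inv x := by ext <;> simp
  map_mul' x y := by
    ext
    · simp [mul_comm]
    · simp only [Prod.snd_mul, Prod.fst_mul, mul_inv]
      exact mul_mul_mul_comm _ _ _ _

def sig : MulAut ((A × A) × K) := MulEquiv.prodCongr (sig0 A) (MulEquiv.refl K)

variable {A K}

theorem rho_apply (a b : A) (k : K) : rho A K ((a, b), k) = ((b, a⁻¹), k) := rfl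
theorem swp_apply (a b : A) (k : K) : swp A K ((a, b), k) = ((b, a), k) := rfl
theorem sig_apply (a b : A) (k : K) : sig A K ((a, b), k) = ((b⁻¹, a * b⁻¹), k) := rfl

theorem swp_sq : swp A K * swp A K = 1 := by
  apply MulEquiv.ext
  rintro ⟨⟨a, b⟩, k⟩
  rw [MulAut.mul_apply, swp_apply, swp_apply]; rfl

theorem rho_four : rho A K ^ 4 = 1 := by
  apply MulEquiv.ext
  rintro ⟨⟨a, b⟩, k⟩
  have e : rho A K ^ 4 = rho A K * (rho A K * (rho A K * rho A K)) := by
    rw [pow_succ', pow_succ', pow_succ', pow_one]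
  rw [e, MulAut.mul_apply, MulAut.mul_apply, MulAut.mul_apply, rho_apply, rho_apply, rho_apply,
    rho_apply, inv_inv, inv_inv]; rfl

theorem swp_rho_sq : (swp A K * rho A K) * (swp A K * rho A K) = 1 := by
  apply MulEquiv.ext
  rintro ⟨⟨a, b⟩, k⟩
  rw [MulAut.mul_apply, MulAut.mul_apply, MulAut.mul_apply, rho_apply, swp_apply, rho_apply,
    swp_apply, inv_inv]; rfl

theorem sig_cube : sig A K ^ 3 = 1 := by
  apply MulEquiv.ext
  rintro ⟨⟨a, b⟩, k⟩
  have e : sig A K ^ 3 = sig A K * (sig A K * sig A K) := by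
    rw [pow_succ', pow_succ', pow_one]
  rw [e, MulAut.mul_apply, MulAut.mul_apply, sig_apply, sig_apply, sig_apply]
  simp

theorem isPGroup_two_D8 : IsPGroup 2 (zpowers (swp A K) ⊔ zpowers (rho A K) : Subgroup _) := by
  have hs : (swp A K)⁻¹ = swp A K := inv_eq_of_mul_eq_one_left swp_sq
  have hconj : swp A K * rho A K * (swp A K)⁻¹ = (rho A K)⁻¹ := by
    rw [hs, eq_inv_iff_mul_eq_one, mul_assoc (swp A K * rho A K)]
    exact swp_rho_sq
  apply IsPGroup.to_sup_of_normal_right'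
  · rintro ⟨g, hg⟩
    obtain ⟨j, rfl⟩ := mem_zpowers_iff.1 hg
    refine ⟨1, Subtype.ext ?_⟩
    simp only [pow_one, SubmonoidClass.mk_pow, OneMemClass.coe_one]
    rw [← zpow_natCast, ← zpow_mul, mul_comm, zpow_mul, zpow_natCast, pow_two, swp_sq, one_zpow]
  · rintro ⟨g, hg⟩
    obtain ⟨j, rfl⟩ := mem_zpowers_iff.1 hg
    refine ⟨2, Subtype.ext ?_⟩
    simp only [SubmonoidClass.mk_pow, OneMemClass.coe_one]
    rw [← zpow_natCast, ← zpow_mul, mul_comm, zpow_mul, zpow_natCast]
    norm_num [rho_four]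
  · rw [zpowers_le, mem_normalizer_iff]
    intro h
    constructor
    · intro hh
      obtain ⟨j, rfl⟩ := mem_zpowers_iff.1 hh
      have : swp A K * rho A K ^ j * (swp A K)⁻¹ = ((rho A K)⁻¹) ^ j := by
        rw [← hconj, conj_zpow]
      rw [this]
      exact zpow_mem (inv_mem (mem_zpowers _)) j
    · intro hh
      obtain ⟨j, hj⟩ := mem_zpowers_iff.1 hh
      have h1 : h = (swp A K)⁻¹ * (rho A K ^ j) * swp A K := by rw [hj]; group
      have h2 : (swp A K)⁻¹ * (rho A K ^ j) * swp A K = ((rho A K)⁻¹) ^ j := by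
        rw [← hconj, conj_zpow, hs]
      rw [h1, h2]
      exact zpow_mem (inv_mem (mem_zpowers _)) j

end gen

theorem exists_bad_subgroup (p n : ℕ) [Fact p.Prime] (hn : 0 < n) (K : Type*) [CommGroup K]
    [Finite K] :
    ∃ H : Subgroup (MulAut ((Multiplicative (ZMod (p ^ n)) × Multiplicative (ZMod (p ^ n))) × K)),
      (Nat.card H).Coprime p ∧
        ¬ ((∀ a ∈ H, ∀ b ∈ H, a * b = b * a) ∧ ∀ h ∈ H, h ^ (p - 1) = 1) := by
  have hp : p.Prime := Fact.out
  have hpn : 1 < p ^ n := Nat.one_lt_pow hn.ne' hp.one_lt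
  have : NeZero (p ^ n) := ⟨by omega⟩
  have : Fact (1 < p ^ n) := ⟨hpn⟩
  have hfin : Finite (Multiplicative (ZMod (p ^ n))) := inferInstance
  set A := Multiplicative (ZMod (p ^ n)) with hA
  set u : A := Multiplicative.ofAdd (1 : ZMod (p ^ n)) with hu
  have hu1 : u ≠ 1 := by
    intro h
    have : (1 : ZMod (p ^ n)) = 0 := h
    exact one_ne_zero this
  rcases hp.eq_two_or_odd' with h2 | hodd
  · -- `p = 2`
    have hσ1 : sig A K ≠ 1 := by
      intro h
      have h1 := congrArg (fun f : MulAut ((A × A) × K) => f ((u, 1), 1)) h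
      simp only [sig_apply, MulAut.one_apply] at h1
      have h3 := congrArg (fun x : (A × A) × K => x.1.1) h1
      simp only [inv_one] at h3
      exact hu1 h3.symm
    have : Fact (Nat.Prime 3) := ⟨Nat.prime_three⟩
    have hord : orderOf (sig A K) = 3 := orderOf_eq_prime sig_cube hσ1
    refine ⟨zpowers (sig A K), ?_, ?_⟩
    · rw [Nat.card_zpowers, hord, h2]; decide
    · rintro ⟨-, h⟩
      have := h _ (mem_zpowers (sig A K))
      have h3 : p - 1 = 1 := by omega
      rw [h3, pow_one] at this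
      exact hσ1 this
  · refine ⟨zpowers (swp A K) ⊔ zpowers (rho A K), ?_, ?_⟩
    · obtain ⟨j, hj⟩ := (isPGroup_two_D8 (A := A) (K := K)).exists_card_eq
      rw [hj]
      apply Nat.Coprime.pow_left
      rw [Nat.coprime_two_left]
      exact hodd
    · rintro ⟨h, -⟩
      have h1 := h _ ((le_sup_left : zpowers (swp A K) ≤ _) (mem_zpowers _)) _
        ((le_sup_right : zpowers (rho A K) ≤ zpowers (swp A K) ⊔ zpowers (rho A K))
          (mem_zpowers _))
      have h3 := congrArg (fun f : MulAut ((A × A) × K) => f ((u, 1), 1)) h1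
      simp only [MulAut.mul_apply, rho_apply, swp_apply] at h3
      have h4 := congrArg (fun x : (A × A) × K => x.1.1) h3
      simp only at h4
      -- `u⁻¹ = u`
      have h5 : (-1 : ZMod (p ^ n)) = 1 := h4
      have h6 : ((2 : ℕ) : ZMod (p ^ n)) = 0 := by
        push_cast
        linear_combination -h5
      rw [ZMod.natCast_eq_zero_iff] at h6
      have h7 : p ∣ 2 := (dvd_pow_self p hn.ne').trans h6
      have h8 : p = 2 := (Nat.prime_dvd_prime_iff_eq hp Nat.prime_two).1 h7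
      rw [h8] at hodd
      exact absurd hodd (by decide)

end Cfsg.Agent.Lib.Helper64.SS
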