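import Mathlib

set_option autoImplicit false

/-!
# Piece C2 of the S5283/S5284 farm
-/

namespace Cfsg.Agent.Lib.Helper64.SS

variable {p : ℕ} [Fact p.Prime]

theorem coordL (n k : ℕ) (t u : ZMod (p ^ n)) (ht : t = p ^ k • u) (hpt : p • t = 0)
    (hn : n ≠ k + 1) : ∃ w : ZMod (p ^ n), t = p ^ (k + 1) • w := by
  have hp : p.Prime := Fact.out
  have : NeZero (p ^ n) := ⟨(pow_pos hp.pos n).ne'⟩
  rcases Nat.lt_or_ge k n with hkn | hnk
  · -- `k + 2 ≤ n`
    have h1 : ((p ^ (k + 1) * u.val : ℕ) : ZMod (p ^ n)) = 0 := by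
      rw [ht, smul_smul, nsmul_eq_mul] at hpt
      rw [Nat.cast_mul, ZMod.natCast_zmod_val, pow_succ, mul_comm (p ^ k) p]
      exact hpt
    rw [ZMod.natCast_eq_zero_iff] at h1
    have h2 : p ^ (k + 1) * p ∣ p ^ (k + 1) * u.val := by
      refine dvd_trans ?_ h1
      rw [← pow_succ]
      exact pow_dvd_pow p (by omega)
    have h3 : p ∣ u.val := Nat.dvd_of_mul_dvd_mul_left (pow_pos hp.pos _) h2
    obtain ⟨w, hw⟩ := h3
    refine ⟨(w : ZMod (p ^ n)), ?_⟩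
    rw [ht, ← ZMod.natCast_zmod_val u, hw, nsmul_eq_mul, nsmul_eq_mul]
    push_cast
    ring
  · refine ⟨0, ?_⟩
    rw [ht, nsmul_eq_mul, (ZMod.natCast_eq_zero_iff _ _).2 (pow_dvd_pow p hnk)]
    simp

theorem D_pi_add {ι : Type*} (e : ι → ℕ)
    (he : ∀ i j, e i = e j → 0 < e i → i = j) (k : ℕ)
    (X Y A B : ∀ i, ZMod (p ^ e i)) (hX : p • X = 0) (hY : p • Y = 0)
    (hXA : X = p ^ k • A) (hYB : Y = p ^ k • B) (hXc : ¬ ∃ C, X = p ^ (k + 1) • C) :
    ∃ i : ℕ, ∃ C, Y + i • X = p ^ (k + 1) • C := by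
  have hp : p.Prime := Fact.out
  have hne : ∀ j, NeZero (p ^ e j) := fun j => ⟨(pow_pos hp.pos _).ne'⟩
  have hXj : ∀ j, p • X j = 0 := fun j => congrFun hX j
  have hYj : ∀ j, p • Y j = 0 := fun j => congrFun hY j
  have hXAj : ∀ j, X j = p ^ k • A j := fun j => congrFun hXA j
  have hYBj : ∀ j, Y j = p ^ k • B j := fun j => congrFun hYB j
  -- the special coordinate
  obtain ⟨i0, hi0⟩ : ∃ i0, e i0 = k + 1 := by
    by_contra hcon
    push Not at hcon
    apply hXc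
    choose w hw using fun j => coordL (e j) k (X j) (A j) (hXAj j) (hXj j) (hcon j)
    exact ⟨w, funext hw⟩
  have hother : ∀ j, j ≠ i0 → e j ≠ k + 1 := by
    intro j hj h
    exact hj (he j i0 (by rw [h, hi0]) (by omega))
  have hzero : ∀ m : ℕ, p ^ (k + 1) ∣ m → ((m : ℕ) : ZMod (p ^ e i0)) = 0 := by
    intro m hm
    rw [ZMod.natCast_eq_zero_iff, hi0]
    exact hm
  have hXi0 : X i0 = ((p ^ k * (A i0).val : ℕ) : ZMod (p ^ e i0)) := by
    rw [hXAj, nsmul_eq_mul, Nat.cast_mul, ZMod.natCast_zmod_val]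
  have hYi0 : Y i0 = ((p ^ k * (B i0).val : ℕ) : ZMod (p ^ e i0)) := by
    rw [hYBj, nsmul_eq_mul, Nat.cast_mul, ZMod.natCast_zmod_val]
  have ha : ¬ p ∣ (A i0).val := by
    intro hd
    apply hXc
    have h0 : X i0 = 0 := by
      rw [hXi0]
      apply hzero
      rw [pow_succ]
      exact Nat.mul_dvd_mul_left _ hd
    have hall : ∀ j, ∃ w : ZMod (p ^ e j), X j = p ^ (k + 1) • w := by
      intro j
      by_cases hj : j = i0
      · subst hj
        exact ⟨0, by rw [h0, smul_zero]⟩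
      · exact coordL (e j) k (X j) (A j) (hXAj j) (hXj j) (hother j hj)
    choose w hw using hall
    exact ⟨w, funext hw⟩
  have ha' : (((A i0).val : ℕ) : ZMod p) ≠ 0 := by
    rw [Ne, ZMod.natCast_eq_zero_iff]
    exact ha
  set i : ℕ := ((-(((B i0).val : ℕ) : ZMod p)) * (((A i0).val : ℕ) : ZMod p)⁻¹).val with hi
  have hdvd : p ∣ (B i0).val + i * (A i0).val := by
    rw [← ZMod.natCast_eq_zero_iff, Nat.cast_add, Nat.cast_mul, hi, ZMod.natCast_zmod_val,
      mul_assoc, inv_mul_cancel₀ ha']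
    ring
  refine ⟨i, ?_⟩
  have hall : ∀ j, ∃ w : ZMod (p ^ e j), (Y + i • X) j = p ^ (k + 1) • w := by
    intro j
    by_cases hj : j = i0
    · subst hj
      refine ⟨0, ?_⟩
      rw [smul_zero, Pi.add_apply, Pi.smul_apply, hXi0, hYi0, nsmul_eq_mul, ← Nat.cast_mul,
        ← Nat.cast_add]
      apply hzero
      have e1 : p ^ k * (B j).val + i * (p ^ k * (A j).val) =
          p ^ k * ((B j).val + i * (A j).val) := by ring
      rw [e1, pow_succ]
      exact Nat.mul_dvd_mul_left _ hdvd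
    · apply coordL (e j) k _ (B j + i • A j) _ _ (hother j hj)
      · rw [Pi.add_apply, Pi.smul_apply, hXAj, hYBj, smul_add, smul_comm]
      · rw [Pi.add_apply, Pi.smul_apply, smul_add, smul_comm, hXj, hYj, smul_zero, add_zero]
  choose w hw using hall
  exact ⟨w, funext hw⟩

theorem D_pi {ι : Type*} [Fintype ι] (e : ι → ℕ)
    (he : ∀ i j, e i = e j → 0 < e i → i = j) (k : ℕ)
    (x y : Multiplicative (∀ i, ZMod (p ^ e i)))
    (hx : x ^ p = 1) (hy : y ^ p = 1) (hxa : ∃ a, x = a ^ (p ^ k)) (hyb : ∃ b, y = b ^ (p ^ k))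
    (hxc : ¬ ∃ c, x = c ^ (p ^ (k + 1))) : ∃ i : ℕ, ∃ c, y * x ^ i = c ^ (p ^ (k + 1)) := by
  obtain ⟨a, ha⟩ := hxa
  obtain ⟨b, hb⟩ := hyb
  obtain ⟨i, C, hC⟩ := D_pi_add e he k (Multiplicative.toAdd x) (Multiplicative.toAdd y)
    (Multiplicative.toAdd a) (Multiplicative.toAdd b)
    (by rw [← toAdd_pow, hx]; rfl) (by rw [← toAdd_pow, hy]; rfl)
    (by rw [← toAdd_pow, ← ha]) (by rw [← toAdd_pow, ← hb])
    (by
      rintro ⟨C, hC⟩
      exact hxc ⟨Multiplicative.ofAdd C, by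
        apply Multiplicative.toAdd.injective
        rw [toAdd_pow, toAdd_ofAdd, hC]⟩)
  refine ⟨i, Multiplicative.ofAdd C, ?_⟩
  apply Multiplicative.toAdd.injective
  rw [toAdd_pow, toAdd_ofAdd, toAdd_mul, toAdd_pow, hC]

end Cfsg.Agent.Lib.Helper64.SS
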