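import Mathlib

set_option autoImplicit false

/-!
# Piece C3 of the S5283/S5284 farm
-/

namespace Cfsg.Agent.Lib.Helper64.SS

open DirectSum

/-- additive version of `Equiv.piSplitAt` -/
def addPiSplitAt {α : Type*} [DecidableEq α] (i : α) (β : α → Type*) [∀ j, AddCommGroup (β j)] :
    (∀ j, β j) ≃+ β i × ∀ j : { j // j ≠ i }, β j :=
  { Equiv.piSplitAt i β with map_add' := fun _ _ => rfl }

theorem exists_iso_pi {P : Type*} [CommGroup P] [Finite P] {p : ℕ} [Fact p.Prime]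
    (hP : IsPGroup p P)
    (hno : ¬ ∃ (n : ℕ) (H : Type) (_ : CommGroup H), 0 < n ∧
      Nonempty (P ≃* (Multiplicative (ZMod (p ^ n)) × Multiplicative (ZMod (p ^ n))) × H)) :
    ∃ (ι : Type) (_ : Fintype ι) (e : ι → ℕ), (∀ i j, e i = e j → 0 < e i → i = j) ∧
      Nonempty (P ≃* Multiplicative (∀ i, ZMod (p ^ e i))) := by
  classical
  have hp : p.Prime := Fact.out
  obtain ⟨ι, hι, q, hq, e, ⟨φ⟩⟩ := AddCommGroup.equiv_directSum_zmod_of_finite (Additive P)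
  let φ1 : Additive P ≃+ ∀ i, ZMod (q i ^ e i) :=
    φ.trans (DirectSum.addEquivProd (fun i => ZMod (q i ^ e i)))
  obtain ⟨K, hK⟩ := hP.exists_card_eq
  have hcard : ∏ i, q i ^ e i = p ^ K := by
    rw [← hK]
    have h1 : Nat.card P = Nat.card (∀ i, ZMod (q i ^ e i)) := Nat.card_congr φ1.toEquiv
    rw [h1, Nat.card_pi]
    simp [Nat.card_zmod]
  have hqe : ∀ i, q i ^ e i = p ^ e i := by
    intro i
    rcases Nat.eq_zero_or_pos (e i) with h0 | hpos
    · rw [h0, pow_zero, pow_zero]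
    · have h1 : q i ^ e i ∣ p ^ K := by
        rw [← hcard]
        exact Finset.dvd_prod_of_mem _ (Finset.mem_univ i)
      have h2 : q i ∣ p ^ K := (dvd_pow_self _ hpos.ne').trans h1
      have h3 : q i ∣ p := (hq i).dvd_of_dvd_pow h2
      rw [(Nat.prime_dvd_prime_iff_eq (hq i) hp).1 h3]
  let φ2 : Additive P ≃+ ∀ i, ZMod (p ^ e i) :=
    φ1.trans (AddEquiv.piCongrRight (fun i => (ZMod.ringEquivCongr (hqe i)).toAddEquiv))
  refine ⟨ι, hι, e, ?_, ⟨AddEquiv.toMultiplicativeRight φ2⟩⟩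
  intro i j hij hpos
  by_contra hne
  apply hno
  have hji : j ≠ i := fun h => hne h.symm
  let β : ι → Type := fun l => ZMod (p ^ e l)
  let β' : { l // l ≠ i } → Type := fun l => ZMod (p ^ e l.1)
  let ψ1 : (∀ l, β l) ≃+ β i × ∀ l : { l // l ≠ i }, β' l := addPiSplitAt i β
  let ψ2 : (∀ l : { l // l ≠ i }, β' l) ≃+
      β' ⟨j, hji⟩ × ∀ l : { l : { l // l ≠ i } // l ≠ ⟨j, hji⟩ }, β' l.1 :=
    addPiSplitAt (⟨j, hji⟩ : { l // l ≠ i }) β'
  let C : Type := ∀ l : { l : { l // l ≠ i } // l ≠ ⟨j, hji⟩ }, β' l.1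
  let ci : β i ≃+ ZMod (p ^ e i) := AddEquiv.refl _
  let cj : β' ⟨j, hji⟩ ≃+ ZMod (p ^ e i) :=
    (ZMod.ringEquivCongr (by rw [hij] : p ^ e j = p ^ e i)).toAddEquiv
  let ψ : Additive P ≃+ (ZMod (p ^ e i) × ZMod (p ^ e i)) × C :=
    (φ2.trans ψ1).trans (((AddEquiv.prodCongr ci (ψ2.trans (AddEquiv.prodCongr cj
      (AddEquiv.refl C))))).trans AddEquiv.prodAssoc.symm)
  refine ⟨e i, Multiplicative C, inferInstance, hpos, ⟨?_⟩⟩
  exact ((AddEquiv.toMultiplicativeRight ψ).trans (MulEquiv.prodMultiplicative _ _)).trans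
    (MulEquiv.prodCongr (MulEquiv.prodMultiplicative _ _) (MulEquiv.refl _))

end Cfsg.Agent.Lib.Helper64.SS
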