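import Mathlib

set_option autoImplicit false

/-!
# Piece C4 of the S5283/S5284 farm
-/

namespace Cfsg.Agent.Lib.Helper64.SS

open Subgroup

variable {G : Type*} [CommGroup G]

/-- `V(j,k) = {x | (x^(p^j))^p = 1 ∧ x^(p^j) ∈ G^(p^k)}` -/
def VV (G : Type*) [CommGroup G] (p j k : ℕ) : Subgroup G where
  carrier := {x | (x ^ (p ^ j)) ^ p = 1 ∧ ∃ a, x ^ (p ^ j) = a ^ (p ^ k)}
  one_mem' := ⟨by simp, 1, by simp⟩
  mul_mem' := by
    rintro x y ⟨hx, a, ha⟩ ⟨hy, b, hb⟩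
    refine ⟨by rw [mul_pow, mul_pow, hx, hy, one_mul], a * b, by rw [mul_pow, mul_pow, ha, hb]⟩
  inv_mem' := by
    rintro x ⟨hx, a, ha⟩
    refine ⟨by rw [inv_pow, inv_pow, hx, inv_one], a⁻¹, by rw [inv_pow, inv_pow, ha]⟩

theorem mem_VV {p j k : ℕ} {x : G} :
    x ∈ VV G p j k ↔ (x ^ (p ^ j)) ^ p = 1 ∧ ∃ a, x ^ (p ^ j) = a ^ (p ^ k) := Iff.rfl

theorem VV_char (p j k : ℕ) (α : MulAut G) (x : G) (hx : x ∈ VV G p j k) : α x ∈ VV G p j k := by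
  obtain ⟨h1, a, ha⟩ := hx
  refine ⟨by rw [← map_pow, ← map_pow, h1, map_one], α a, by rw [← map_pow, ← map_pow, ha]⟩

theorem VV_succ_le (p j k : ℕ) : VV G p j (k + 1) ≤ VV G p j k := by
  rintro x ⟨h1, a, ha⟩
  exact ⟨h1, a ^ p, by rw [ha, pow_succ, mul_comm, pow_mul]⟩

theorem VV_step {p : ℕ}
    (hD : ∀ k : ℕ, ∀ x y : G, x ^ p = 1 → y ^ p = 1 → (∃ a, x = a ^ (p ^ k)) →
      (∃ b, y = b ^ (p ^ k)) → (¬ ∃ c, x = c ^ (p ^ (k + 1))) →
      ∃ i : ℕ, ∃ c, y * x ^ i = c ^ (p ^ (k + 1))) (j k : ℕ) :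
    ∃ x, VV G p j k = VV G p j (k + 1) ⊔ zpowers x := by
  by_cases h : VV G p j k ≤ VV G p j (k + 1)
  · refine ⟨1, ?_⟩
    rw [zpowers_one_eq_bot, sup_bot_eq]
    exact le_antisymm h (VV_succ_le p j k)
  · obtain ⟨x, hx, hx'⟩ := SetLike.not_le_iff_exists.1 h
    refine ⟨x, le_antisymm ?_ (sup_le (VV_succ_le p j k) (by rw [zpowers_le]; exact hx))⟩
    intro y hy
    obtain ⟨hx1, hxa⟩ := hx
    obtain ⟨hy1, hyb⟩ := hy
    have hxc : ¬ ∃ c, x ^ (p ^ j) = c ^ (p ^ (k + 1)) := fun hc => hx' ⟨hx1, hc⟩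
    obtain ⟨i, c, hc⟩ := hD k _ _ hx1 hy1 hxa hyb hxc
    have h1 : y * x ^ i ∈ VV G p j (k + 1) := by
      have e : (y * x ^ i) ^ (p ^ j) = y ^ (p ^ j) * (x ^ (p ^ j)) ^ i := by
        rw [mul_pow, ← pow_mul, ← pow_mul, mul_comm i]
      refine ⟨?_, c, by rw [e, hc]⟩
      rw [e, mul_pow, hy1, one_mul, ← pow_mul, mul_comm, pow_mul, hx1, one_pow]
    have h2 : y = (y * x ^ i) * (x ^ i)⁻¹ := by group
    rw [h2]
    exact mul_mem ((le_sup_left : _ ≤ VV G p j (k + 1) ⊔ zpowers x) h1)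
      ((le_sup_right : _ ≤ VV G p j (k + 1) ⊔ zpowers x) (inv_mem (pow_mem (mem_zpowers x) i)))

theorem VV_zero_eq {p K : ℕ} (hK : ∀ a : G, a ^ (p ^ K) = 1) (j : ℕ) :
    VV G p (j + 1) K = VV G p j 0 := by
  ext x
  rw [mem_VV, mem_VV]
  constructor
  · rintro ⟨-, a, ha⟩
    rw [hK] at ha
    exact ⟨by rw [← pow_mul, ← pow_succ, ha], x ^ (p ^ j), by simp⟩
  · rintro ⟨h1, -⟩
    have h2 : x ^ (p ^ (j + 1)) = 1 := by rw [pow_succ, pow_mul, h1]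
    exact ⟨by rw [h2, one_pow], 1, by rw [h2, one_pow]⟩

/-- the enumeration of the pairs `(j,k)` -/
def stt (K : ℕ) : ℕ → ℕ × ℕ
  | 0 => (0, K)
  | t + 1 => if (stt K t).2 = 0 then ((stt K t).1 + 1, K) else ((stt K t).1, (stt K t).2 - 1)

theorem stt_reach (K j : ℕ) : ∃ t, stt K t = (j, K) := by
  induction j with
  | zero => exact ⟨0, rfl⟩
  | succ j ih =>
    obtain ⟨t, ht⟩ := ih
    have h1 : ∀ i, i ≤ K → stt K (t + i) = (j, K - i) := by
      intro i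
      induction i with
      | zero => intro _; simpa using ht
      | succ i ihi =>
        intro hi
        have h2 := ihi (by omega)
        have h3 : stt K (t + (i + 1)) = if (stt K (t + i)).2 = 0 then ((stt K (t + i)).1 + 1, K)
            else ((stt K (t + i)).1, (stt K (t + i)).2 - 1) := rfl
        rw [h3, h2]
        have h4 : K - i ≠ 0 := by omega
        simp only [h4, if_false]
        congr 1
    have h5 := h1 K le_rfl
    refine ⟨t + K + 1, ?_⟩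
    have h6 : stt K (t + K + 1) = if (stt K (t + K)).2 = 0 then ((stt K (t + K)).1 + 1, K)
        else ((stt K (t + K)).1, (stt K (t + K)).2 - 1) := rfl
    rw [h6, h5]
    simp

theorem exists_char_chain [Finite G] {p : ℕ} [Fact p.Prime] (hG : IsPGroup p G)
    (hD : ∀ k : ℕ, ∀ x y : G, x ^ p = 1 → y ^ p = 1 → (∃ a, x = a ^ (p ^ k)) →
      (∃ b, y = b ^ (p ^ k)) → (¬ ∃ c, x = c ^ (p ^ (k + 1))) →
      ∃ i : ℕ, ∃ c, y * x ^ i = c ^ (p ^ (k + 1))) :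
    ∃ (W : ℕ → Subgroup G) (m : ℕ), Monotone W ∧ W 0 = ⊥ ∧ W m = ⊤ ∧
      (∀ t, ∀ α : MulAut G, ∀ x ∈ W t, α x ∈ W t) ∧
      ∀ t, ∃ x, W (t + 1) = W t ⊔ Subgroup.zpowers x := by
  obtain ⟨K, hK⟩ := hG.exists_card_eq
  have hK' : ∀ a : G, a ^ (p ^ K) = 1 := fun a => by rw [← hK]; exact pow_card_eq_one'
  have hstep : ∀ t, ∃ x, VV G p (stt K (t + 1)).1 (stt K (t + 1)).2 =
      VV G p (stt K t).1 (stt K t).2 ⊔ Subgroup.zpowers x := by
    intro t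
    have h3 : stt K (t + 1) = if (stt K t).2 = 0 then ((stt K t).1 + 1, K)
        else ((stt K t).1, (stt K t).2 - 1) := rfl
    by_cases h0 : (stt K t).2 = 0
    · refine ⟨1, ?_⟩
      rw [h3, if_pos h0, h0, zpowers_one_eq_bot, sup_bot_eq]
      exact VV_zero_eq hK' _
    · rw [h3, if_neg h0]
      obtain ⟨x, hx⟩ := VV_step hD (stt K t).1 ((stt K t).2 - 1)
      refine ⟨x, ?_⟩
      have e : (stt K t).2 - 1 + 1 = (stt K t).2 := by omega
      rw [e] at hx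
      exact hx
  obtain ⟨m, hm⟩ := stt_reach K K
  refine ⟨fun t => VV G p (stt K t).1 (stt K t).2, m, ?_, ?_, ?_, ?_, hstep⟩
  · apply monotone_nat_of_le_succ
    intro t
    obtain ⟨x, hx⟩ := hstep t
    rw [hx]
    exact le_sup_left
  · rw [eq_bot_iff]
    rintro x ⟨-, a, ha⟩
    have h1 : stt K 0 = (0, K) := rfl
    rw [h1] at ha
    simp only [pow_zero, pow_one, hK'] at ha
    exact ha
  · rw [eq_top_iff]
    intro x _
    simp only [hm]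
    exact ⟨by rw [hK', one_pow], 1, by rw [hK', one_pow]⟩
  · intro t α x hx
    exact VV_char p _ _ α x hx

end Cfsg.Agent.Lib.Helper64.SS
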