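import Mathlib
import Cfsg.Agent.Lib.Helper64.MetaData
import Cfsg.Agent.Lib.Helper64.TwoCyc
import Cfsg.Agent.Lib.Helper73.Sectional
import Cfsg.Agent.Lib.Helper84.StronglyEmbedded2
import Cfsg.Agent.Lib.Helper29.PGroupSmall

set_option autoImplicit false

/-! Tools for `2`-groups of sectional rank at most two (helper64). -/

namespace Cfsg.Agent.Lib.Helper64

open Subgroup

variable {X : Type*} [Group X]

theorem isMetacyclic_of_sup (a b : X) (hn : (zpowers a).Normal) (h : zpowers a ⊔ zpowers b = ⊤) :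
    Cfsg.IsMetacyclic X := by
  refine ⟨zpowers a, hn, inferInstance, ⟨QuotientGroup.mk b, fun x => ?_⟩⟩
  obtain ⟨g, rfl⟩ := QuotientGroup.mk_surjective x
  have hg : g ∈ zpowers a ⊔ zpowers b := by rw [h]; trivial
  rw [← SetLike.mem_coe, normal_mul] at hg
  obtain ⟨n, hn', c, hc, rfl⟩ := hg
  obtain ⟨i, rfl⟩ := mem_zpowers_iff.1 hc
  refine mem_zpowers_iff.2 ⟨i, ?_⟩
  rw [QuotientGroup.mk_mul, (QuotientGroup.eq_one_iff n).2 hn', one_mul, QuotientGroup.mk_zpow]

theorem zpowers_normal_of_closure [Finite X] (a : X) (T : Set X) (hT : closure T = ⊤)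
    (h : ∀ t ∈ T, t * a * t⁻¹ ∈ zpowers a) : (zpowers a).Normal := by
  rw [← normalizer_eq_top_iff, eq_top_iff, ← hT, closure_le]
  intro t ht
  apply Cfsg.Agent.Lib.Helper84.mem_normalizer_of_finite
  intro x hx
  obtain ⟨i, rfl⟩ := mem_zpowers_iff.1 hx
  have : t * a ^ i * t⁻¹ = (t * a * t⁻¹) ^ i := by
    rw [conj_zpow]
  rw [this]
  exact Subgroup.zpow_mem _ (h t ht) i

theorem commutator_le_of_closure (C : Subgroup X) [C.Normal] (T : Set X) (hT : closure T = ⊤)
    (h : ∀ s ∈ T, ∀ t ∈ T, s * t * s⁻¹ * t⁻¹ ∈ C) : commutator X ≤ C := by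
  rw [← Subgroup.Normal.quotient_commutative_iff_commutator_le]
  have h1 : closure ((QuotientGroup.mk' C) '' T) = ⊤ := by
    rw [← MonoidHom.map_closure, hT, ← MonoidHom.range_eq_map,
      MonoidHom.range_eq_top.2 (QuotientGroup.mk'_surjective C)]
  have h2 := isMulCommutative_closure (k := (QuotientGroup.mk' C) '' T) (by
    rintro _ ⟨s, hs, rfl⟩ _ ⟨t, ht, rfl⟩
    have h3 := (QuotientGroup.eq_one_iff _).2 (h s hs t ht)
    have h4 : QuotientGroup.mk' C s * QuotientGroup.mk' C t * (QuotientGroup.mk' C s)⁻¹ *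
        (QuotientGroup.mk' C t)⁻¹ = 1 := h3
    rw [mul_inv_eq_one, mul_inv_eq_iff_eq_mul] at h4
    exact h4)
  rw [h1] at h2
  refine ⟨⟨fun x y => ?_⟩⟩
  have := h2.is_comm.comm ⟨x, mem_top x⟩ ⟨y, mem_top y⟩
  exact congrArg Subtype.val this

/-- three commuting involutions in a group of `2`-rank at most two are dependent. -/
theorem dependent_of_rank (hr : ∀ A : Subgroup X, IsMulCommutative A → (∀ a ∈ A, a ^ 2 = 1) →
    Nat.card A ≤ 2 ^ 2) [Finite X] {x y z : X} (hx : x ^ 2 = 1) (hy : y ^ 2 = 1) (hz : z ^ 2 = 1)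
    (hxy : x * y = y * x) (hxz : x * z = z * x) (hyz : y * z = z * y) :
    x = 1 ∨ y = 1 ∨ z = 1 ∨ x = y ∨ x = z ∨ y = z ∨ x * y = z := by
  have hcomm : ∀ s ∈ ({x, y, z} : Set X), ∀ t ∈ ({x, y, z} : Set X), s * t = t * s := by
    rintro s (rfl | rfl | rfl) t (rfl | rfl | rfl) <;> first | rfl | assumption | (symm; assumption)
  have hA := isMulCommutative_closure hcomm
  have hexp : ∀ a ∈ closure ({x, y, z} : Set X), a ^ 2 = 1 := by
    intro a ha
    induction ha using closure_induction with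
    | mem s hs =>
      rcases hs with rfl | rfl | rfl <;> assumption
    | one => simp
    | mul s t hs ht ihs iht =>
      have hc : s * t = t * s := congrArg Subtype.val (hA.is_comm.comm ⟨s, hs⟩ ⟨t, ht⟩)
      rw [(show Commute s t from hc).mul_pow, ihs, iht, one_mul]
    | inv s _ ihs => rw [inv_pow, ihs, inv_one]
  have hcard := hr _ hA hexp
  have hxm : x ∈ closure ({x, y, z} : Set X) := subset_closure (by simp)
  have hym : y ∈ closure ({x, y, z} : Set X) := subset_closure (by simp)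
  have hzm : z ∈ closure ({x, y, z} : Set X) := subset_closure (by simp)
  by_contra hcon
  push Not at hcon
  obtain ⟨h1, h2, h3, h4, h5, h6, h7⟩ := hcon
  let f : Fin 5 → closure ({x, y, z} : Set X) :=
    ![1, ⟨x, hxm⟩, ⟨y, hym⟩, ⟨z, hzm⟩, ⟨x * y, mul_mem hxm hym⟩]
  have hinj : Function.Injective f := by
    intro i j hij
    have hij' : ((f i : closure ({x, y, z} : Set X)) : X) = f j := congrArg Subtype.val hij
    have hx' : x⁻¹ = x := by rw [inv_eq_iff_mul_eq_one, ← pow_two, hx]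
    fin_cases i <;> fin_cases j <;> simp [f] at hij' ⊢ <;> first
      | exact absurd hij' (by assumption)
      | exact absurd hij'.symm (by assumption)
      | (exfalso; apply h4; rw [← hx']; exact (inv_eq_of_mul_eq_one_right hij'))
      | (exfalso; apply h4; rw [← hx']; exact (inv_eq_of_mul_eq_one_right hij'.symm))
  have := Nat.card_le_card_of_injective f hinj
  rw [Nat.card_fin] at this
  omega

end Cfsg.Agent.Lib.Helper64
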