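import Mathlib
import Cfsg.Agent.Lib.Helper64.SecRankA

set_option autoImplicit false

/-! The Rédei stage: a `2`-group of rank at most two generated by `u`, `v` and a central involution
`z` with `[v,u] ∈ ⟨z⟩` is metacyclic (helper64). -/

namespace Cfsg.Agent.Lib.Helper64

open Subgroup

variable {S : Type*} [Group S]

structure ZHyp (z : S) : Prop where
  central : ∀ g : S, g * z = z * g
  sq : z ^ 2 = 1
  ne : z ≠ 1

structure Red (z w u v : S) : Prop where
  hw : w = 1 ∨ w = z
  comm : v * u = w * (u * v)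
  gen : closure ({u, v, z} : Set S) = ⊤

theorem ZHyp.mem_zpowers {z : S} (hz : ZHyp z) {x : S} (hx : x ∈ zpowers z) : x = 1 ∨ x = z := by
  obtain ⟨i, rfl⟩ := mem_zpowers_iff.1 hx
  rcases Int.even_or_odd' i with ⟨k, rfl | rfl⟩
  · left
    rw [zpow_mul, zpow_ofNat, hz.sq, one_zpow]
  · right
    rw [zpow_add, zpow_mul, zpow_ofNat, hz.sq, one_zpow, one_mul, zpow_one]

namespace Red

variable {z w u v : S}

theorem w_mem (h : Red z w u v) : w ∈ zpowers z := by
  rcases h.hw with rfl | rfl
  · exact one_mem _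
  · exact mem_zpowers _

theorem w_central (hz : ZHyp z) (h : Red z w u v) (g : S) : Commute w g := by
  rcases h.hw with rfl | rfl
  · exact Commute.one_left g
  · exact (hz.central g).symm

theorem w_sq (hz : ZHyp z) (h : Red z w u v) : w * w = 1 := by
  rcases h.hw with rfl | rfl
  · simp
  · rw [← pow_two, hz.sq]

theorem symm (hz : ZHyp z) (h : Red z w u v) : Red z w v u where
  hw := h.hw
  comm := by
    rw [h.comm, ← mul_assoc, h.w_sq hz, one_mul]
  gen := by
    rw [← h.gen]
    congr 1
    ext x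
    simp only [Set.mem_insert_iff, Set.mem_singleton_iff]
    tauto

theorem meta_of_mem [Finite S] (hz : ZHyp z) (h : Red z w u v) (hzu : z ∈ zpowers u) :
    Cfsg.IsMetacyclic S := by
  apply isMetacyclic_of_sup u v
  · apply zpowers_normal_of_closure u _ h.gen
    rintro t (rfl | rfl | rfl)
    · rw [mul_inv_cancel_right]; exact mem_zpowers _
    · rw [h.comm]
      have : w * (u * t) * t⁻¹ = w * u := by group
      rw [this]
      exact mul_mem (zpowers_le.2 hzu h.w_mem) (mem_zpowers u)
    · rw [← hz.central u, mul_inv_cancel_right]; exact mem_zpowers _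
  · rw [eq_top_iff, ← h.gen, closure_le]
    rintro t (rfl | rfl | rfl)
    · exact (le_sup_left : zpowers t ≤ _) (mem_zpowers t)
    · exact (le_sup_right : zpowers t ≤ _) (mem_zpowers t)
    · exact (le_sup_left : zpowers u ≤ _) hzu

theorem meta_of_eq_one [Finite S] (hz : ZHyp z) (h : Red z w u v) (hu : u = 1) :
    Cfsg.IsMetacyclic S := by
  subst hu
  apply isMetacyclic_of_sup v z
  · apply zpowers_normal_of_closure v _ h.gen
    rintro t (rfl | rfl | rfl)
    · simp
    · rw [mul_inv_cancel_right]; exact mem_zpowers _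
    · rw [← hz.central v, mul_inv_cancel_right]; exact mem_zpowers _
  · rw [eq_top_iff, ← h.gen, closure_le]
    rintro t (rfl | rfl | rfl)
    · exact one_mem _
    · exact (le_sup_left : zpowers t ≤ _) (mem_zpowers t)
    · exact (le_sup_right : zpowers t ≤ _) (mem_zpowers t)

/-- the reduction step. -/
theorem step (hz : ZHyp z) (h : Red z w u v) {r s : ℕ} (hu : orderOf u = 2 ^ (r + 1))
    (hsr : s ≤ r) (hrel : v ^ 2 ^ s * u ^ 2 ^ r ∈ zpowers z) :
    ∃ v' : S, Red z w u v' ∧ v' ^ 2 ^ s ∈ zpowers z := by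
  obtain ⟨e, he⟩ : ∃ e : ℕ, e = 2 ^ (r + 1) - 2 ^ (r - s) := ⟨_, rfl⟩
  have hle : 2 ^ (r - s) ≤ 2 ^ (r + 1) := Nat.pow_le_pow_right (by norm_num) (by omega)
  refine ⟨v * u ^ e, ⟨h.hw, ?_, ?_⟩, ?_⟩
  · calc v * u ^ e * u = (v * u) * u ^ e := by
          rw [mul_assoc, mul_assoc, ← pow_succ, ← pow_succ']
      _ = w * (u * (v * u ^ e)) := by rw [h.comm]; simp only [mul_assoc]
  · rw [eq_top_iff, ← h.gen, closure_le]
    rintro t (rfl | rfl | rfl)
    · exact subset_closure (by simp)
    · have h1 : t * u ^ e ∈ closure ({u, t * u ^ e, z} : Set S) := subset_closure (by simp)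
      have h2 : u ∈ closure ({u, t * u ^ e, z} : Set S) := subset_closure (by simp)
      have h3 := mul_mem h1 (inv_mem (pow_mem h2 e))
      rwa [mul_inv_cancel_right] at h3
    · exact subset_closure (by simp)
  · have hs := h.symm hz
    have h1 := pow_mul_pow_of_comm_central hs.comm (h.w_central hz v) (h.w_central hz u) 1 e
    rw [pow_one, one_mul] at h1
    rw [mul_pow_of_comm_central h1 ((h.w_central hz v).pow_left e)
      ((h.w_central hz (u ^ e)).pow_left e)]
    have h2 : (u ^ e) ^ 2 ^ s = u ^ 2 ^ r := by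
      have h3 : e * 2 ^ s + 2 ^ r = 2 ^ (r + 1) * 2 ^ s := by
        have h4 : 2 ^ (r - s) * 2 ^ s = 2 ^ r := by rw [← pow_add]; congr 1; omega
        rw [he, Nat.sub_mul, h4]
        apply Nat.sub_add_cancel
        calc 2 ^ r ≤ 2 ^ (r + 1) := Nat.pow_le_pow_right (by norm_num) (by omega)
          _ ≤ 2 ^ (r + 1) * 2 ^ s := Nat.le_mul_of_pos_right _ (by positivity)
      have h5 : u ^ (e * 2 ^ s) * u ^ 2 ^ r = 1 := by
        rw [← pow_add, h3, pow_mul, ← hu, pow_orderOf_eq_one, one_pow]
      have h6 : u ^ 2 ^ r * u ^ 2 ^ r = 1 := by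
        rw [← pow_add, ← two_mul, ← pow_succ', ← hu, pow_orderOf_eq_one]
      rw [← pow_mul]
      exact mul_right_cancel (h5.trans h6.symm)
    rw [h2]
    exact mul_mem (pow_mem (pow_mem h.w_mem _) _) hrel

theorem exists_order [Finite S] (h2 : IsPGroup 2 S) {x : S} (hx : x ≠ 1) :
    ∃ r : ℕ, orderOf x = 2 ^ (r + 1) := by
  obtain ⟨k, hk⟩ := h2 x
  obtain ⟨r, -, hr⟩ := (Nat.dvd_prime_pow Nat.prime_two).1 (orderOf_dvd_of_pow_eq_one hk)
  rcases r with _ | r
  · exact absurd (orderOf_eq_one_iff.1 (by simpa using hr)) hx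
  · exact ⟨r, hr⟩

theorem isMetacyclic [Finite S] (h2 : IsPGroup 2 S)
    (hr : ∀ A : Subgroup S, IsMulCommutative A → (∀ a ∈ A, a ^ 2 = 1) → Nat.card A ≤ 2 ^ 2)
    (hz : ZHyp z) : ∀ n : ℕ, ∀ u v : S, orderOf u + orderOf v ≤ n → Red z w u v →
      Cfsg.IsMetacyclic S := by
  intro n
  induction n with
  | zero =>
    intro u v hn _
    have := orderOf_pos u
    omega
  | succ n ih =>
    intro u v hn h
    by_cases hzu : z ∈ zpowers u
    · exact h.meta_of_mem hz hzu
    by_cases hzv : z ∈ zpowers v
    · exact (h.symm hz).meta_of_mem hz hzv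
    by_cases hu1 : u = 1
    · exact h.meta_of_eq_one hz hu1
    by_cases hv1 : v = 1
    · exact (h.symm hz).meta_of_eq_one hz hv1
    obtain ⟨r, hur⟩ := exists_order h2 hu1
    obtain ⟨s, hvs⟩ := exists_order h2 hv1
    by_cases hD : w = z ∧ r = 0 ∧ s = 0
    · obtain ⟨rfl, rfl, rfl⟩ := hD
      have hu2 : u * u = 1 := by
        rw [← pow_two]
        have := pow_orderOf_eq_one u
        rwa [hur] at this
      have hv2 : v * v = 1 := by
        rw [← pow_two]
        have := pow_orderOf_eq_one v
        rwa [hvs] at this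
      have ht : (u * v) ^ 2 = w := by
        calc (u * v) ^ 2 = u * (v * u) * v := by rw [pow_two]; simp only [mul_assoc]
          _ = u * (w * (u * v)) * v := by rw [h.comm]
          _ = w * ((u * u) * (v * v)) := by
              rw [← mul_assoc u w, hz.central u]; simp only [mul_assoc]
          _ = w := by rw [hu2, hv2]; simp
      have hred : Red w w (u * v) v := by
        refine ⟨h.hw, ?_, ?_⟩
        · rw [← mul_assoc, h.comm]; simp only [mul_assoc]
        · rw [eq_top_iff, ← h.gen, closure_le]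
          rintro t (rfl | rfl | rfl)
          · have h1 : t * v ∈ closure ({t * v, v, w} : Set S) := subset_closure (by simp)
            have h3 : v ∈ closure ({t * v, v, w} : Set S) := subset_closure (by simp)
            have h4 := mul_mem h1 (inv_mem h3)
            rwa [mul_inv_cancel_right] at h4
          · exact subset_closure (by simp)
          · exact subset_closure (by simp)
      exact hred.meta_of_mem hz (ht ▸ pow_mem (mem_zpowers _) 2)
    · -- the involutions commute
      have hu0 : (u ^ 2 ^ r) ^ 2 = 1 := by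
        rw [← pow_mul, ← pow_succ, ← hur, pow_orderOf_eq_one]
      have hv0 : (v ^ 2 ^ s) ^ 2 = 1 := by
        rw [← pow_mul, ← pow_succ, ← hvs, pow_orderOf_eq_one]
      have hu01 : u ^ 2 ^ r ≠ 1 := by
        apply pow_ne_one_of_lt_orderOf (by positivity)
        rw [hur]; exact Nat.pow_lt_pow_right (by norm_num) (by omega)
      have hv01 : v ^ 2 ^ s ≠ 1 := by
        apply pow_ne_one_of_lt_orderOf (by positivity)
        rw [hvs]; exact Nat.pow_lt_pow_right (by norm_num) (by omega)
      have hww : w ^ (2 ^ r * 2 ^ s) = 1 := by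
        rcases h.hw with rfl | rfl
        · simp
        · have hrs : r + s ≠ 0 := by
            intro h0
            exact hD ⟨rfl, by omega, by omega⟩
          obtain ⟨q, hq⟩ : ∃ q, r + s = q + 1 := ⟨r + s - 1, by omega⟩
          rw [← pow_add, hq, pow_succ', pow_mul, hz.sq, one_pow]
      have hcomm : v ^ 2 ^ s * u ^ 2 ^ r = u ^ 2 ^ r * v ^ 2 ^ s := by
        have := pow_mul_pow_of_comm_central h.comm (h.w_central hz u) (h.w_central hz v)
          (2 ^ r) (2 ^ s)
        rwa [hww, one_mul] at this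
      have hrel : u ^ 2 ^ r * v ^ 2 ^ s ∈ zpowers z := by
        rcases dependent_of_rank hr hu0 hv0 hz.sq hcomm.symm (hz.central _) (hz.central _) with
          h1 | h1 | h1 | h1 | h1 | h1 | h1
        · exact absurd h1 hu01
        · exact absurd h1 hv01
        · exact absurd h1 hz.ne
        · rw [← h1, ← pow_two, hu0]; exact one_mem _
        · exact absurd (h1 ▸ pow_mem (mem_zpowers u) _) hzu
        · exact absurd (h1 ▸ pow_mem (mem_zpowers v) _) hzv
        · rw [h1]; exact mem_zpowers z
      rcases le_total s r with hsr | hrs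
      · obtain ⟨v', hred, hv'⟩ := h.step hz hur hsr (hcomm ▸ hrel)
        rcases hz.mem_zpowers hv' with h1 | h1
        · apply ih u v' _ hred
          have h3 := Nat.le_of_dvd (by positivity) (orderOf_dvd_of_pow_eq_one h1)
          have h4 : 2 ^ s < 2 ^ (s + 1) := Nat.pow_lt_pow_right (by norm_num) (by omega)
          omega
        · exact (hred.symm hz).meta_of_mem hz (h1 ▸ pow_mem (mem_zpowers v') _)
      · obtain ⟨u', hred, hu'⟩ := (h.symm hz).step hz hvs hrs hrel
        rcases hz.mem_zpowers hu' with h1 | h1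
        · apply ih v u' _ hred
          have h3 := Nat.le_of_dvd (by positivity) (orderOf_dvd_of_pow_eq_one h1)
          have h4 : 2 ^ r < 2 ^ (r + 1) := Nat.pow_lt_pow_right (by norm_num) (by omega)
          omega
        · exact (hred.symm hz).meta_of_mem hz (h1 ▸ pow_mem (mem_zpowers u') _)

end Red

end Cfsg.Agent.Lib.Helper64
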