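import Mathlib
import Cfsg.Agent.Lib.Helper64.SecRankB

set_option autoImplicit false

/-! `2`-groups of sectional rank at most two are metacyclic (helper64). -/

namespace Cfsg.Agent.Lib.Helper64

open Subgroup

theorem rank_of_sectional {S : Type*} [Group S] [Finite S] (hr : Cfsg.SectionalPRankLE 2 2 S) :
    ∀ A : Subgroup S, IsMulCommutative A → (∀ a ∈ A, a ^ 2 = 1) → Nat.card A ≤ 2 ^ 2 := by
  intro A _ hA
  have := Cfsg.Agent.Lib.Helper73.section_bound' 2 hr A ⊥ bot_le
    (by intro h _ n hn; rw [mem_bot] at hn; subst hn; simp) (by intro h hh; rw [hA h hh]; exact one_mem _)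
  simpa using this

theorem sectional_quotient {S : Type*} [Group S] [Finite S] (hr : Cfsg.SectionalPRankLE 2 2 S)
    (M : Subgroup S) [M.Normal] : Cfsg.SectionalPRankLE 2 2 (S ⧸ M) := by
  apply Cfsg.Agent.Lib.Helper73.sectional_of_bound
  intro H N hle hn hsq
  have h1 := Cfsg.Agent.Lib.Helper73.section_bound' 2 hr (H.comap (QuotientGroup.mk' M))
    (N.comap (QuotientGroup.mk' M)) (comap_mono hle) ?_ ?_
  · rw [Cfsg.Agent.Lib.Lead.card_comap_mk', Cfsg.Agent.Lib.Lead.card_comap_mk'] at h1
    have h2 : Nat.card M * Nat.card H ≤ Nat.card M * (2 ^ 2 * Nat.card N) := by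
      calc Nat.card M * Nat.card H ≤ 2 ^ 2 * (Nat.card M * Nat.card N) := h1
        _ = _ := by ring
    exact Nat.le_of_mul_le_mul_left h2 Nat.card_pos
  · intro h hh n hn'
    rw [mem_comap] at hh hn' ⊢
    rw [map_mul, map_mul, map_inv]
    exact hn _ hh _ hn'
  · intro h hh
    rw [mem_comap] at hh ⊢
    rw [map_pow]
    exact hsq _ hh

theorem lift_step {S : Type*} [Group S] [Finite S] (h2 : IsPGroup 2 S)
    (hr : ∀ A : Subgroup S, IsMulCommutative A → (∀ a ∈ A, a ^ 2 = 1) → Nat.card A ≤ 2 ^ 2)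
    {z : S} (hz : ZHyp z) (hzc : (¬ ∀ x y : S, x * y = y * x) → z ∈ commutator S)
    [(zpowers z).Normal] (hq : Cfsg.IsMetacyclic (S ⧸ zpowers z)) : Cfsg.IsMetacyclic S := by
  have : Fact (Nat.Prime 2) := ⟨Nat.prime_two⟩
  obtain ⟨a', b', κ, m, k, n, D⟩ := exists_metaData (h2.to_quotient _) hq
  obtain ⟨a, rfl⟩ := QuotientGroup.mk_surjective a'
  obtain ⟨b, rfl⟩ := QuotientGroup.mk_surjective b'
  obtain ⟨μ, hμ, hconj⟩ : ∃ μ : S, (μ = 1 ∨ μ = z) ∧ b * a * b⁻¹ = a ^ (1 + κ) * μ := by
    refine ⟨(a ^ (1 + κ))⁻¹ * (b * a * b⁻¹), ?_, by group⟩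
    apply hz.mem_zpowers
    rw [← QuotientGroup.eq]
    exact D.conj.symm
  have hgen : closure ({a, b, z} : Set S) = ⊤ := by
    rw [eq_top_iff]
    intro g _
    obtain ⟨j, i, hg⟩ := D.gen (QuotientGroup.mk g)
    have h1 : (a ^ j * b ^ i)⁻¹ * g ∈ zpowers z := by
      rw [← QuotientGroup.eq]
      exact hg.symm
    have ha : a ∈ closure ({a, b, z} : Set S) := subset_closure (by simp)
    have hb : b ∈ closure ({a, b, z} : Set S) := subset_closure (by simp)
    have hzm : z ∈ closure ({a, b, z} : Set S) := subset_closure (by simp)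
    have h3 := mul_mem (mul_mem (pow_mem ha j) (pow_mem hb i)) (zpowers_le.2 hzm h1)
    rwa [mul_inv_cancel_left] at h3
  have hμm : μ ∈ zpowers z := by
    rcases hμ with rfl | rfl
    · exact one_mem _
    · exact mem_zpowers _
  by_cases hza : z ∈ zpowers a
  · apply isMetacyclic_of_sup a b
    · apply zpowers_normal_of_closure a _ hgen
      rintro t (rfl | rfl | rfl)
      · rw [mul_inv_cancel_right]; exact mem_zpowers _
      · rw [hconj]
        exact mul_mem (pow_mem (mem_zpowers a) _) (zpowers_le.2 hza hμm)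
      · rw [← hz.central a, mul_inv_cancel_right]; exact mem_zpowers _
    · rw [eq_top_iff, ← hgen, closure_le]
      rintro t (rfl | rfl | rfl)
      · exact (le_sup_left : zpowers t ≤ _) (mem_zpowers t)
      · exact (le_sup_right : zpowers t ≤ _) (mem_zpowers t)
      · exact (le_sup_left : zpowers a ≤ _) hza
  by_cases hab : ∀ x y : S, x * y = y * x
  · exact Red.isMetacyclic (w := 1) h2 hr hz _ a b le_rfl ⟨Or.inl rfl, by rw [one_mul, hab], hgen⟩
  have hzK := hzc hab
  -- a general commutator bound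
  have key : ∀ c : S, a * c = c * a → b * a * b⁻¹ = a * c → b * c * b⁻¹ ∈ zpowers c →
      z ∈ zpowers c := by
    intro c hac hbac hbc
    have hn : (zpowers c).Normal := by
      apply zpowers_normal_of_closure c _ hgen
      rintro t (rfl | rfl | rfl)
      · rw [hac, mul_inv_cancel_right]; exact mem_zpowers _
      · exact hbc
      · rw [← hz.central c, mul_inv_cancel_right]; exact mem_zpowers _
    apply commutator_le_of_closure (zpowers c) _ hgen _ hzK
    have hzz : ∀ g : S, g * z * g⁻¹ * z⁻¹ = 1 := by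
      intro g
      rw [hz.central g, mul_inv_cancel_right, mul_inv_cancel]
    have hzz' : ∀ g : S, z * g * z⁻¹ * g⁻¹ = 1 := by
      intro g
      rw [← hz.central g, mul_inv_cancel_right, mul_inv_cancel]
    rintro s (rfl | rfl | rfl) t (rfl | rfl | rfl)
    · rw [mul_inv_cancel_right, mul_inv_cancel]; exact one_mem _
    · have : s * t * s⁻¹ * t⁻¹ = s * (t * s * t⁻¹)⁻¹ := by group
      rw [this, hbac, hac, mul_inv_rev]
      have : s * (s⁻¹ * c⁻¹) = c⁻¹ := by group
      rw [this]
      exact inv_mem (mem_zpowers c)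
    · rw [hzz]; exact one_mem _
    · rw [hbac, hac, mul_inv_cancel_right]; exact mem_zpowers c
    · rw [mul_inv_cancel_right, mul_inv_cancel]; exact one_mem _
    · rw [hzz]; exact one_mem _
    · rw [hzz']; exact one_mem _
    · rw [hzz']; exact one_mem _
    · rw [hzz']; exact one_mem _
  obtain ⟨κ', rfl⟩ := D.dvd
  rcases hμ with rfl | rfl
  · exfalso
    apply hza
    have h1 := key (a ^ (2 * κ')) (by rw [← pow_succ, ← pow_succ'])
      (by rw [hconj, mul_one, pow_add, pow_one])
      (by
        rw [← conj_pow, hconj, mul_one, ← pow_mul, mul_comm (1 + 2 * κ'),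
          pow_mul a (2 * κ') (1 + 2 * κ')]
        exact pow_mem (mem_zpowers (a ^ (2 * κ'))) _)
    exact zpowers_le.2 (pow_mem (mem_zpowers a) _) h1
  · have hzp : μ ^ (2 * κ') = 1 := by rw [pow_mul, hz.sq, one_pow]
    have hca : Commute a μ := hz.central a
    have h1 := key (a ^ (2 * κ') * μ)
      (by
        rw [← mul_assoc, ← pow_succ', pow_succ, mul_assoc, mul_assoc, hz.central a])
      (by rw [hconj, pow_add, pow_one, mul_assoc])
      (by
        have h3 : b * (a ^ (2 * κ') * μ) * b⁻¹ = (b * a * b⁻¹) ^ (2 * κ') * μ := by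
          rw [conj_pow, ← mul_assoc, mul_assoc _ μ, ← hz.central b⁻¹]
          simp only [mul_assoc]
        have h4 : (a ^ (2 * κ') * μ) ^ (1 + 2 * κ') = (b * a * b⁻¹) ^ (2 * κ') * μ := by
          rw [hconj, (hca.pow_left _).mul_pow, (hca.pow_left _).mul_pow, hzp, pow_add μ, hzp,
            pow_one, mul_one, mul_one, ← pow_mul, ← pow_mul, mul_comm]
        rw [h3, ← h4]
        exact pow_mem (mem_zpowers _) _)
    obtain ⟨t, ht⟩ := exists_pow_of_mem_zpowers h1
    rw [(hca.pow_left _).mul_pow] at ht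
    rcases Nat.even_or_odd' t with ⟨q, rfl | rfl⟩
    · exfalso
      apply hza
      rw [pow_mul μ, hz.sq, one_pow, mul_one] at ht
      rw [ht]
      exact pow_mem (pow_mem (mem_zpowers a) _) _
    · rw [pow_add μ, pow_mul μ, hz.sq, one_pow, one_mul, pow_one] at ht
      have h5 : (a ^ (2 * κ')) ^ (2 * q + 1) = 1 := by
        simpa using ht
      obtain ⟨e, he⟩ := h2 (a ^ (2 * κ'))
      have h6 := pow_gcd_eq_one.2 ⟨h5, he⟩
      have h7 : Nat.gcd (2 * q + 1) (2 ^ e) = 1 := by
        apply Nat.Coprime.pow_right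
        rw [Nat.coprime_two_right]
        exact ⟨q, rfl⟩
      rw [h7, pow_one] at h6
      refine Red.isMetacyclic (w := μ) h2 hr hz _ a b le_rfl ⟨Or.inr rfl, ?_, hgen⟩
      rw [pow_add, h6, mul_one, pow_one] at hconj
      rw [mul_inv_eq_iff_eq_mul] at hconj
      rw [hconj, hz.central a, mul_assoc]

universe u

theorem metacyclic_aux : ∀ n : ℕ, ∀ (S : Type u) [Group S] [Finite S], Nat.card S ≤ n →
    IsPGroup 2 S → Cfsg.SectionalPRankLE 2 2 S → Cfsg.IsMetacyclic S := by
  intro n
  induction n with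
  | zero =>
    intro S _ _ h
    have : 0 < Nat.card S := Nat.card_pos
    omega
  | succ n ih =>
    intro S _ _ hn h2 hr
    have : Fact (Nat.Prime 2) := ⟨Nat.prime_two⟩
    by_cases h1 : Subsingleton S
    · apply isMetacyclic_of_sup (1 : S) 1
      · rw [zpowers_one_eq_bot]; infer_instance
      · exact Subsingleton.elim _ _
    rw [not_subsingleton_iff_nontrivial] at h1
    obtain ⟨z, hzc, hz2, hzK⟩ : ∃ z : S, z ∈ center S ∧ orderOf z = 2 ∧
        ((¬ ∀ x y : S, x * y = y * x) → z ∈ commutator S) := by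
      by_cases hab : ∀ x y : S, x * y = y * x
      · obtain ⟨z, -, hzc, hz2⟩ := Cfsg.Agent.Lib.Helper29.exists_central_orderOf_eq h2 ⊤
          top_ne_bot
        exact ⟨z, hzc, hz2, fun h => absurd hab h⟩
      · obtain ⟨z, hzK, hzc, hz2⟩ := Cfsg.Agent.Lib.Helper29.exists_central_orderOf_eq h2
          (commutator S) (by
            intro h
            apply hab
            rw [commutator_eq_bot_iff_center_eq_top] at h
            intro x y
            have : x ∈ center S := by rw [h]; trivial
            exact (mem_center_iff.1 this y).symm)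
        exact ⟨z, hzc, hz2, fun _ => hzK⟩
    have hz : ZHyp z := by
      refine ⟨fun g => mem_center_iff.1 hzc g, ?_, ?_⟩
      · rw [← hz2, pow_orderOf_eq_one]
      · rintro rfl
        simp at hz2
    have hN : (zpowers z).Normal := by
      apply zpowers_normal_of_closure z Set.univ (by simp)
      intro t _
      rw [hz.central t, mul_inv_cancel_right]
      exact mem_zpowers z
    apply lift_step h2 (rank_of_sectional hr) hz hzK
    apply ih _ _ (h2.to_quotient _) (sectional_quotient hr _)
    have h3 := card_eq_card_quotient_mul_card_subgroup (zpowers z)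
    rw [Nat.card_zpowers, hz2] at h3
    omega

end Cfsg.Agent.Lib.Helper64
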