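import Mathlib
import Cfsg.Prelude.Def_Transfer
import Cfsg.Agent.Lib.Lead.Residual

/-!
# Piece P6 of S4130
-/

namespace Cfsg.Agent.Lib.Helper64.SqFree

open Subgroup Cfsg.Agent.Lib.Lead

variable {G : Type*} [Group G] [Finite G] {p : ℕ} [Fact p.Prime]

theorem normalizer_le_centralizer_of_npc (P : Sylow p G)
    (hab : ∀ a ∈ P, ∀ b ∈ P, a * b = b * a) (L : Subgroup G) (hPL : (P : Subgroup G) ≤ L)
    (hL : Cfsg.HasNormalPComplement p L) :
    ∀ n ∈ L, n ∈ normalizer ((P : Subgroup G) : Set G) →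
      n ∈ centralizer ((P : Subgroup G) : Set G) := by
  intro n hnL hnN
  have hc := HasNormalPComplement.isComplement'_pPrimeCore hL (P.subtype hPL)
  have hcop : (Nat.card (Cfsg.pPrimeCore p L)).Coprime p := card_pPrimeCore_coprime p
  obtain ⟨⟨⟨k, hk⟩, ⟨u, hu⟩⟩, hku, -⟩ := (isComplement_iff_existsUnique.1 hc) ⟨n, hnL⟩
  simp only at hku
  have huP : (u : G) ∈ P := by
    have h0 : u ∈ ((P.subtype hPL : Sylow p L) : Subgroup L) := hu
    rw [Sylow.coe_subtype, mem_subgroupOf] at h0
    exact h0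
  have hn : n = (k : G) * (u : G) := by
    have := congrArg Subtype.val hku
    simpa using this.symm
  have hkN : (k : G) ∈ normalizer ((P : Subgroup G) : Set G) := by
    have h1 : (k : G) = n * (u : G)⁻¹ := by rw [hn]; group
    rw [h1]
    exact mul_mem hnN (inv_mem (le_normalizer huP))
  -- `k` centralizes `P`
  have hkc : ∀ x ∈ P, (k : G) * x = x * (k : G) := by
    intro x hx
    have hxL : x ∈ L := hPL hx
    -- commutator in `L`
    set c : L := k * ⟨x, hxL⟩ * k⁻¹ * ⟨x, hxL⟩⁻¹ with hcdef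
    have hcK : c ∈ Cfsg.pPrimeCore p L := by
      have h2 : c = k * (⟨x, hxL⟩ * k⁻¹ * ⟨x, hxL⟩⁻¹) := by rw [hcdef]; group
      rw [h2]
      exact mul_mem hk ((inferInstance : (Cfsg.pPrimeCore p L).Normal).conj_mem _ (inv_mem hk) _)
    have hcP : (c : G) ∈ P := by
      have h3 : (c : G) = ((k : G) * x * (k : G)⁻¹) * x⁻¹ := by simp [hcdef]
      rw [h3]
      exact mul_mem ((mem_normalizer_iff.1 hkN x).1 hx) (inv_mem hx)
    have hc1 : c = 1 := by
      obtain ⟨j, hj⟩ := (P.2 ⟨(c : G), hcP⟩)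
      have hj' : c ^ p ^ j = 1 := by
        have := congrArg Subtype.val hj
        apply Subtype.ext
        simpa using this
      have h4 : c ^ Nat.card (Cfsg.pPrimeCore p L) = 1 := by
        have h8 := pow_card_eq_one' (G := Cfsg.pPrimeCore p L) (x := ⟨c, hcK⟩)
        exact congrArg Subtype.val h8
      have h5 := pow_gcd_eq_one.2 ⟨h4, hj'⟩
      rwa [(hcop.pow_right j).gcd_eq_one, pow_one] at h5
    have h6 : ((k : G) * x * (k : G)⁻¹) * x⁻¹ = 1 := by
      have := congrArg Subtype.val hc1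
      simpa [hcdef] using this
    have h7 : (k : G) * x * (k : G)⁻¹ = x := by
      rwa [mul_inv_eq_one] at h6
    calc (k : G) * x = ((k : G) * x * (k : G)⁻¹) * k := by group
      _ = x * k := by rw [h7]
  rw [mem_centralizer_iff]
  intro x hx
  have hx' : x ∈ P := hx
  rw [hn]
  calc x * ((k : G) * u) = (x * k) * u := by group
    _ = (k * x) * u := by rw [hkc x hx']
    _ = k * (x * u) := by group
    _ = k * (u * x) := by rw [hab x hx' u huP]
    _ = (k : G) * u * x := by group

end Cfsg.Agent.Lib.Helper64.SqFree
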